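import Mathlib
import Cfsg.Prelude.Def_Local
import Cfsg.Agent.Lib.Lead.Cores

/-!
# Abelian Sylow subgroups on which `N(P)/C(P)` acts semiregularly: group theory
-/

set_option autoImplicit false

namespace Cfsg.Agent.Lib.Helper74

open Cfsg

section burnside

variable {p : ℕ} [Fact p.Prime]

/-- Burnside's normal `p`-complement theorem, in a convenient form. -/
theorem exists_normal_pComplement {C : Type*} [Group C] [Finite C] (Q : Sylow p C)
    (hN : Subgroup.normalizer (Q : Set C) ≤ Subgroup.centralizer (Q : Set C)) :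
    ∃ K : Subgroup C, K.Normal ∧ (Nat.card K).Coprime p ∧ K.index = Nat.card Q ∧
      ∀ y : C, ¬ p ∣ orderOf y → y ∈ K := by
  have hp : p.Prime := Fact.out
  refine ⟨(MonoidHom.transferSylow Q hN).ker, inferInstance, ?_, ?_, ?_⟩
  · rw [Nat.coprime_comm, Nat.Prime.coprime_iff_not_dvd hp]
    exact MonoidHom.not_dvd_card_ker_transferSylow Q hN
  · exact (MonoidHom.ker_transferSylow_isComplement' Q hN).symm.index_eq_card
  · intro y hy
    rw [MonoidHom.mem_ker]
    obtain ⟨k, hk⟩ := (IsPGroup.iff_orderOf.1 Q.2) (MonoidHom.transferSylow Q hN y)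
    have h1 : orderOf (MonoidHom.transferSylow Q hN y) ∣ orderOf y := orderOf_map_dvd _ y
    rw [hk] at h1
    rcases Nat.eq_zero_or_pos k with rfl | hkpos
    · rw [pow_zero] at hk; exact orderOf_eq_one_iff.1 hk
    · exact absurd ((dvd_pow_self p hkpos.ne').trans h1) hy

end burnside

section ab

variable {G : Type*} [Group G] [Finite G] {p : ℕ} [Fact p.Prime] (P : Sylow p G)
  (hab : IsMulCommutative P)
  (hfrob : ∀ y : G, y ∈ (P : Subgroup G) → y ≠ 1 →
    Subgroup.centralizer ({y} : Set G) ⊓ Subgroup.normalizer ((P : Subgroup G) : Set G) =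
      Subgroup.centralizer ((P : Subgroup G) : Set G))

include hab in
theorem ab_comm {a b : G} (ha : a ∈ (P : Subgroup G)) (hb : b ∈ (P : Subgroup G)) :
    a * b = b * a := by
  have := hab.is_comm.comm (⟨a, ha⟩ : P) ⟨b, hb⟩
  exact congrArg Subtype.val this

include hab in
theorem ab_le_centralizer : (P : Subgroup G) ≤ Subgroup.centralizer ((P : Subgroup G) : Set G) := by
  intro x hx
  rw [Subgroup.mem_centralizer_iff]
  intro y hy
  exact ab_comm P hab hy hx

include hab in
theorem ab_le_centralizer_singleton {y : G} (hy : y ∈ (P : Subgroup G)) :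
    (P : Subgroup G) ≤ Subgroup.centralizer ({y} : Set G) := by
  intro x hx
  rw [Subgroup.mem_centralizer_singleton_iff]
  exact ab_comm P hab hx hy

include hab hfrob in
/-- the centralizer of a non-identity element of `P` has a normal `p`-complement -/
theorem ab_centralizer_complement {y : G} (hy : y ∈ (P : Subgroup G)) (hy1 : y ≠ 1) :
    ∃ K : Subgroup (Subgroup.centralizer ({y} : Set G)), K.Normal ∧ (Nat.card K).Coprime p ∧
      K.index = Nat.card P ∧ ∀ v : Subgroup.centralizer ({y} : Set G), ¬ p ∣ orderOf v → v ∈ K := by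
  have hle := ab_le_centralizer_singleton P hab hy
  have hN : Subgroup.normalizer ((P.subtype hle : Sylow p (Subgroup.centralizer ({y} : Set G))) :
      Set (Subgroup.centralizer ({y} : Set G))) ≤
      Subgroup.centralizer ((P.subtype hle : Sylow p (Subgroup.centralizer ({y} : Set G))) :
        Set (Subgroup.centralizer ({y} : Set G))) := by
    intro g hg
    have hgN : (g : G) ∈ Subgroup.normalizer ((P : Subgroup G) : Set G) := by
      rw [Subgroup.mem_normalizer_iff]
      intro h
      constructor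
      · intro hh
        have := (Subgroup.mem_normalizer_iff.1 hg ⟨h, hle hh⟩).1
          (by rw [Sylow.coe_subtype, Subgroup.mem_subgroupOf]; exact hh)
        rw [Sylow.coe_subtype, Subgroup.mem_subgroupOf] at this
        exact this
      · intro hh
        have hh' : h ∈ Subgroup.centralizer ({y} : Set G) := by
          have h1 := hle hh
          have h2 := (Subgroup.centralizer ({y} : Set G)).mul_mem
            ((Subgroup.centralizer ({y} : Set G)).mul_mem
              ((Subgroup.centralizer ({y} : Set G)).inv_mem g.2) h1) g.2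
          simpa [mul_assoc] using h2
        have := (Subgroup.mem_normalizer_iff.1 hg ⟨h, hh'⟩).2
          (by rw [Sylow.coe_subtype, Subgroup.mem_subgroupOf]; exact hh)
        rw [Sylow.coe_subtype, Subgroup.mem_subgroupOf] at this
        exact this
    have hgC : (g : G) ∈ Subgroup.centralizer ((P : Subgroup G) : Set G) := by
      rw [← hfrob y hy hy1]
      exact ⟨g.2, hgN⟩
    rw [Subgroup.mem_centralizer_iff]
    intro h hh
    have hh' : (h : G) ∈ (P : Subgroup G) := by
      have : h ∈ ((P.subtype hle : Sylow p (Subgroup.centralizer ({y} : Set G))) :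
        Subgroup (Subgroup.centralizer ({y} : Set G))) := hh
      rwa [Sylow.coe_subtype, Subgroup.mem_subgroupOf] at this
    apply Subtype.ext
    exact Subgroup.mem_centralizer_iff.1 hgC h hh'
  obtain ⟨K, h1, h2, h3, h4⟩ := exists_normal_pComplement (P.subtype hle) hN
  refine ⟨K, h1, h2, ?_, h4⟩
  rw [h3]
  have e : ((P : Subgroup G).subgroupOf (Subgroup.centralizer ({y} : Set G))) ≃* (P : Subgroup G) :=
    Subgroup.subgroupOfEquivOfLe hle
  exact Nat.card_congr e.toEquiv

include hab hfrob in
/-- `p`-regular elements of `C(y)` lie in `O_{p'}(C(y))` -/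
theorem ab_mem_centralizerPPrimeCore {y : G} (hy : y ∈ (P : Subgroup G)) (hy1 : y ≠ 1) {v : G}
    (hvy : v * y = y * v) (hv : ¬ p ∣ orderOf v) : v ∈ centralizerPPrimeCore p y := by
  obtain ⟨K, hKn, hKc, -, hKmem⟩ := ab_centralizer_complement P hab hfrob hy hy1
  have hle : K ≤ pPrimeCore p (Subgroup.centralizer ({y} : Set G)) :=
    Cfsg.Agent.Lib.Lead.le_pPrimeCore hKn hKc
  refine ⟨⟨v, Subgroup.mem_centralizer_singleton_iff.2 hvy⟩, hle (hKmem _ ?_), rfl⟩
  rw [← Subgroup.orderOf_coe]
  exact hv

include hab hfrob in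
theorem ab_index_pPrimeCore {y : G} (hy : y ∈ (P : Subgroup G)) (hy1 : y ≠ 1) :
    ∃ k : ℕ, (pPrimeCore p (Subgroup.centralizer ({y} : Set G))).index = p ^ k := by
  obtain ⟨K, hKn, hKc, hKi, -⟩ := ab_centralizer_complement P hab hfrob hy hy1
  have hle : K ≤ pPrimeCore p (Subgroup.centralizer ({y} : Set G)) :=
    Cfsg.Agent.Lib.Lead.le_pPrimeCore hKn hKc
  have h1 := Subgroup.index_dvd_of_le hle
  rw [hKi] at h1
  obtain ⟨n, hn⟩ := IsPGroup.iff_card.1 P.2
  rw [hn] at h1
  obtain ⟨k, -, hk⟩ := (Nat.dvd_prime_pow Fact.out).1 h1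
  exact ⟨k, hk⟩

include hab in
theorem ab_card_centralizer_factorization {y : G} (hy : y ∈ (P : Subgroup G)) :
    p ^ (Nat.card (Subgroup.centralizer ({y} : Set G))).factorization p = Nat.card P := by
  have hle := ab_le_centralizer_singleton P hab hy
  have h1 := (P.subtype hle).card_eq_multiplicity
  have e : ((P : Subgroup G).subgroupOf (Subgroup.centralizer ({y} : Set G))) ≃* (P : Subgroup G) :=
    Subgroup.subgroupOfEquivOfLe hle
  rw [← h1]
  exact Nat.card_congr e.toEquiv

include hab in
/-- Burnside's fusion theorem -/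
theorem ab_fusion {x x' : G} (hx : x ∈ (P : Subgroup G)) (hx' : x' ∈ (P : Subgroup G))
    (h : IsConj x x') :
    ∃ n ∈ Subgroup.normalizer ((P : Subgroup G) : Set G), n * x * n⁻¹ = x' := by
  obtain ⟨g, hg⟩ := isConj_iff.1 h
  haveI := hab
  obtain ⟨n, hn, hn'⟩ := P.conj_eq_normalizer_conj_of_mem x g⁻¹ hx (by rw [inv_inv, hg]; exact hx')
  refine ⟨n⁻¹, Subgroup.inv_mem _ hn, ?_⟩
  rw [inv_inv, ← hn', inv_inv, hg]

end ab

end Cfsg.Agent.Lib.Helper74
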