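import Mathlib
import Cfsg.Agent.Lib.Helper74.AbSylow
import Cfsg.Agent.Lib.Helper78.WeakOrth
import Cfsg.Agent.Lib.Helper4.PPart
import Cfsg.Agent.S0942
import Cfsg.Agent.S0947
import Cfsg.Agent.S0925

/-!
# Abelian Sylow subgroups on which `N(P)/C(P)` acts semiregularly: the columns of the principal block
-/

set_option autoImplicit false
set_option linter.unusedSectionVars false

namespace Cfsg.Agent.Lib.Helper74

open Cfsg Cfsg.Agent.Lib.Helper78
open scoped ComplexConjugate

section ab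

variable {G : Type*} [Group G] [Finite G] {p : ℕ} [Fact p.Prime] {M : Ideal Cfsg.AlgInt}
  (hM : Cfsg.IsPModular p M) (P : Sylow p G) (hab : IsMulCommutative P)
  (hfrob : ∀ y : G, y ∈ (P : Subgroup G) → y ≠ 1 →
    Subgroup.centralizer ({y} : Set G) ⊓ Subgroup.normalizer ((P : Subgroup G) : Set G) =
      Subgroup.centralizer ((P : Subgroup G) : Set G))

theorem exists_orderOf_eq_pow {y : G} (hy : y ∈ (P : Subgroup G)) : ∃ k : ℕ, orderOf y = p ^ k := by
  obtain ⟨k, hk⟩ := (IsPGroup.iff_orderOf.1 P.2) ⟨y, hy⟩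
  exact ⟨k, by rw [← hk, Subgroup.orderOf_mk]⟩

theorem isPPart_self {y : G} (hy : ∃ k : ℕ, orderOf y = p ^ k) : IsPPart p y y :=
  ⟨1, mul_one y, Commute.one_right y, hy, by
    rw [orderOf_one]; exact (Fact.out : p.Prime).one_lt.ne' ∘ Nat.dvd_one.1⟩

theorem isPPart_conj {g x : G} (h : IsPPart p g x) (c : G) :
    IsPPart p (c * g * c⁻¹) (c * x * c⁻¹) := by
  obtain ⟨y, h1, h2, h3, h4⟩ := h
  refine ⟨c * y * c⁻¹, ?_, ?_, ?_, ?_⟩
  · rw [← h1]; group
  · have : x * y = y * x := h2
    show c * x * c⁻¹ * (c * y * c⁻¹) = c * y * c⁻¹ * (c * x * c⁻¹)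
    calc c * x * c⁻¹ * (c * y * c⁻¹) = c * (x * y) * c⁻¹ := by group
      _ = c * (y * x) * c⁻¹ := by rw [this]
      _ = _ := by group
  · have : orderOf (c * x * c⁻¹) = orderOf x := by
      have := orderOf_injective (MulAut.conj c).toMonoidHom (MulAut.conj c).injective x
      simpa using this
    rw [this]; exact h3
  · have : orderOf (c * y * c⁻¹) = orderOf y := by
      have := orderOf_injective (MulAut.conj c).toMonoidHom (MulAut.conj c).injective y
      simpa using this
    rw [this]; exact h4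

include hM hab hfrob in
/-- members of the principal block are constant on the `p`-sections of the elements of `P` -/
theorem ab_value_of_pPart {y : G} (hy : y ∈ (P : Subgroup G)) (hy1 : y ≠ 1) {z : G}
    (hz : IsPPart p z y) (χ : IrrCharacter G) (hχ : χ ∈ principalBlock M G) :
    (χ : G → ℂ) z = (χ : G → ℂ) y := by
  obtain ⟨v, h1, h2, h3, h4⟩ := hz
  rw [← h1]
  exact Cfsg.Agent.S0942.result p M hM y h3 v
    (ab_mem_centralizerPPrimeCore P hab hfrob hy hy1 h2.symm.eq h4) χ hχ

include hM hab hfrob in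
theorem ab_sum_norm_sq {y : G} (hy : y ∈ (P : Subgroup G)) (hy1 : y ≠ 1) :
    ∑ᶠ χ ∈ principalBlock M G, (χ : G → ℂ) y * conj ((χ : G → ℂ) y) = (Nat.card P : ℂ) := by
  classical
  have h := (Cfsg.Agent.S0947.result p M hM y (exists_orderOf_eq_pow P hy) hy1 1
    (by rw [orderOf_one]; exact (Fact.out : p.Prime).one_lt.ne' ∘ Nat.dvd_one.1)).2
    (ab_index_pPrimeCore P hab hfrob hy hy1)
  rw [ab_card_centralizer_factorization P hab hy] at h
  simp only [Subgroup.coe_one, mul_one] at h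
  have h2 : ((∑ᶠ ζ ∈ principalBlock M G, ‖(ζ : G → ℂ) y‖ ^ 2 : ℝ) : ℂ) = (Nat.card P : ℂ) := by
    rw [h]; simp
  rw [← h2, finsum_mem_irr, finsum_mem_irr]
  push_cast
  apply Finset.sum_congr rfl
  intro χ _
  split_ifs
  · rw [Complex.mul_conj, Complex.normSq_eq_norm_sq]
  · simp

open Classical in
include hM hab hfrob in
/-- the inner product of the column of `y₀ ∈ P` with an arbitrary column -/
theorem ab_col_inner {y₀ : G} (hy : y₀ ∈ (P : Subgroup G)) (hy1 : y₀ ≠ 1) {w wp : G}
    (hw : IsPPart p w wp) :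
    ∑ᶠ χ ∈ principalBlock M G, (χ : G → ℂ) w * conj ((χ : G → ℂ) y₀) =
      if IsConj wp y₀ then (Nat.card P : ℂ) else 0 := by
  split_ifs with h
  · obtain ⟨c, hc⟩ := isConj_iff.1 h
    rw [← ab_sum_norm_sq hM P hab hfrob hy hy1]
    refine finsum_mem_congr rfl fun χ hχ => ?_
    have h1 := isPPart_conj hw c
    rw [hc] at h1
    rw [← ab_value_of_pPart hM P hab hfrob hy hy1 h1 χ hχ, irr_isClassFunction χ w c]
  · have h2 := (Cfsg.Agent.S0925.result p M hM).2 w y₀ wp y₀ hw
      (isPPart_self (exists_orderOf_eq_pow P hy)) h (principalBlock M G) isPBlock_principalBlock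
    rw [← h2]
    refine finsum_mem_congr rfl fun χ _ => ?_
    rw [irr_inv]

end ab

end Cfsg.Agent.Lib.Helper74
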