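import Mathlib

/-!
# A lattice lemma ("coherence") for families of integral vectors with Gram matrix `e + δ`
-/

set_option autoImplicit false

namespace Cfsg.Agent.Lib.Helper74

open Finset

section lattice

variable {I : Type*} [Fintype I] [DecidableEq I]

/-- the indicator vector of `a` -/
def ind (a : I) : I → ℤ := fun i => if i = a then 1 else 0

omit [Fintype I] in
theorem ind_apply (a i : I) : ind a i = if i = a then 1 else 0 := rfl

theorem sum_ind_mul (a : I) (g : I → ℤ) : ∑ i, ind a i * g i = g a := by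
  simp [ind]

theorem sum_mul_ind (a : I) (g : I → ℤ) : ∑ i, g i * ind a i = g a := by
  simp [ind]

theorem sum_sq_eq_two {u : I → ℤ} (h : ∑ i, u i ^ 2 = 2) :
    ∃ a b : I, a ≠ b ∧ (u a = 1 ∨ u a = -1) ∧ (u b = 1 ∨ u b = -1) ∧
      ∀ i, i ≠ a → i ≠ b → u i = 0 := by
  have hle : ∀ i, u i ^ 2 ≤ 2 := by
    intro i
    rw [← h]
    exact Finset.single_le_sum (f := fun i => u i ^ 2) (fun j _ => sq_nonneg _) (Finset.mem_univ i)
  have hval : ∀ i, u i = 0 ∨ u i = 1 ∨ u i = -1 := by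
    intro i
    have h1 := hle i
    have h2 : u i ≤ 1 := by nlinarith
    have h3 : -1 ≤ u i := by nlinarith
    omega
  have hsq : ∀ i, u i ^ 2 = if u i ≠ 0 then 1 else 0 := by
    intro i
    rcases hval i with h0 | h0 | h0 <;> simp [h0]
  have hcard : (Finset.univ.filter fun i => u i ≠ 0).card = 2 := by
    have : ((Finset.univ.filter fun i => u i ≠ 0).card : ℤ) = 2 := by
      rw [← h, Finset.card_filter]
      push_cast
      exact Finset.sum_congr rfl fun i _ => (hsq i).symm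
    exact_mod_cast this
  obtain ⟨a, b, hab, hS⟩ := Finset.card_eq_two.1 hcard
  have hmem : ∀ i, u i ≠ 0 ↔ i = a ∨ i = b := by
    intro i
    have : i ∈ (Finset.univ.filter fun i => u i ≠ 0) ↔ i ∈ ({a, b} : Finset I) := by rw [hS]
    simpa using this
  refine ⟨a, b, hab, ?_, ?_, ?_⟩
  · have := (hmem a).2 (Or.inl rfl)
    rcases hval a with h0 | h0 <;> tauto
  · have := (hmem b).2 (Or.inr rfl)
    rcases hval b with h0 | h0 <;> tauto
  · intro i hia hib
    by_contra hne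
    rcases (hmem i).1 hne with h0 | h0 <;> tauto

theorem exists_ind_sub_ind {u f : I → ℤ} (hf : ∀ i, 0 < f i) (h : ∑ i, u i ^ 2 = 2)
    (h0 : ∑ i, u i * f i = 0) : ∃ a b : I, a ≠ b ∧ ∀ i, u i = ind a i - ind b i := by
  obtain ⟨a, b, hab, ha, hb, hrest⟩ := sum_sq_eq_two h
  have hsum : ∑ i, u i * f i = u a * f a + u b * f b := by
    rw [← Finset.sum_pair (f := fun i => u i * f i) hab]
    symm
    apply Finset.sum_subset (Finset.subset_univ _)
    intro i _ hi
    simp only [Finset.mem_insert, Finset.mem_singleton, not_or] at hi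
    rw [hrest i hi.1 hi.2, zero_mul]
  rw [hsum] at h0
  have hfa := hf a
  have hfb := hf b
  rcases ha with ha | ha <;> rcases hb with hb | hb
  · rw [ha, hb] at h0; omega
  · refine ⟨a, b, hab, fun i => ?_⟩
    by_cases hia : i = a
    · subst hia; simp [ind, hab, ha]
    · by_cases hib : i = b
      · subst hib; simp [ind, hia, hb]
      · simp [ind, hia, hib, hrest i hia hib]
  · refine ⟨b, a, hab.symm, fun i => ?_⟩
    by_cases hia : i = a
    · subst hia; simp [ind, hab, ha]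
    · by_cases hib : i = b
      · subst hib; simp [ind, hia, hb]
      · simp [ind, hia, hib, hrest i hia hib]
  · rw [ha, hb] at h0; omega

theorem sum_ind_sub_mul (a b a' b' : I) :
    ∑ i, (ind a i - ind b i) * (ind a' i - ind b' i) =
      (if a = a' then 1 else 0) + (if b = b' then 1 else 0) - (if a = b' then 1 else 0)
        - (if b = a' then 1 else 0) := by
  have : ∀ i, (ind a i - ind b i) * (ind a' i - ind b' i) =
      ind a i * ind a' i - ind a i * ind b' i - ind b i * ind a' i + ind b i * ind b' i := by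
    intro i; ring
  simp only [this, Finset.sum_add_distrib, Finset.sum_sub_distrib, sum_ind_mul]
  simp only [ind]
  ring

open Classical in
theorem coherence_aux {Λ : Type*} (r : Λ → Λ → Prop) (b : Λ → I → ℤ) (e : ℤ)
    (hG : ∀ l m, ∑ i, b l i * b m i = e + (if r l m then 1 else 0))
    (hrefl : ∀ l, r l l) (l₀ : Λ) (ε : ℤ) (hε : ε = 1 ∨ ε = -1) (β₀ : I)
    (hrel : ∀ ν, r l₀ ν → ∀ i, b ν i = b l₀ i)
    (hstar : ∀ ν, ¬ r l₀ ν → ∃ a, ∀ i, b ν i - b l₀ i = ε * (ind a i - ind β₀ i)) :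
    ∃ (ε : ℤ) (w : I → ℤ) (θ : Λ → I) (c : ℤ), (ε = 1 ∨ ε = -1) ∧
      (∀ l i, b l i = w i + ε * ind (θ l) i) ∧ (∀ l m, θ l = θ m ↔ r l m) ∧ ∀ l, w (θ l) = c := by
  have hεε : ε * ε = 1 := by rcases hε with h | h <;> rw [h] <;> norm_num
  obtain ⟨w, hw⟩ : ∃ w : I → ℤ, w = fun i => b l₀ i - ε * ind β₀ i := ⟨_, rfl⟩
  obtain ⟨θ, hθ⟩ : ∃ θ : Λ → I, θ = fun ν => if h : r l₀ ν then β₀ else (hstar ν h).choose :=
    ⟨_, rfl⟩
  have hb : ∀ l i, b l i = w i + ε * ind (θ l) i := by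
    intro l i
    rw [hw, hθ]
    by_cases h : r l₀ l
    · simp only [dif_pos h]
      rw [hrel l h i]; ring
    · simp only [dif_neg h]
      have := (hstar l h).choose_spec i
      linear_combination this
  have hsq : ∀ l m, ∑ i, (b l i - b m i) ^ 2 = 2 - 2 * (if r l m then 1 else 0) := by
    intro l m
    have : ∀ i, (b l i - b m i) ^ 2 = b l i * b l i - 2 * (b l i * b m i) + b m i * b m i := by
      intro i; ring
    simp only [this, Finset.sum_add_distrib, Finset.sum_sub_distrib, ← Finset.mul_sum, hG,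
      if_pos (hrefl _)]
    ring
  refine ⟨ε, w, θ, w (θ l₀), hε, hb, ?_, ?_⟩
  · intro l m
    have h1 := hsq l m
    have h2 : ∑ i, (b l i - b m i) ^ 2 =
        ∑ i, (ind (θ l) i - ind (θ m) i) * (ind (θ l) i - ind (θ m) i) := by
      apply Finset.sum_congr rfl
      intro i _
      rw [hb l i, hb m i]
      linear_combination (ind (θ l) i - ind (θ m) i) ^ 2 * hεε
    rw [h2, sum_ind_sub_mul] at h1
    by_cases h3 : θ l = θ m <;> by_cases h4 : r l m
    · exact ⟨fun _ => h4, fun _ => h3⟩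
    · simp [h3, h4] at h1
    · simp [h3, h4, Ne.symm h3] at h1
    · exact ⟨fun h => absurd h h3, fun h => absurd h h4⟩
  · have hn : ∀ l, ∑ i, w i * w i + 2 * ε * w (θ l) + 1 = e + 1 := by
      intro l
      have h1 := hG l l
      rw [if_pos (hrefl l)] at h1
      rw [← h1]
      have : ∀ i, b l i * b l i = w i * w i + 2 * ε * (w i * ind (θ l) i) +
          ind (θ l) i * ind (θ l) i := by
        intro i
        rw [hb l i]
        linear_combination (ind (θ l) i) ^ 2 * hεε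
      simp only [this, Finset.sum_add_distrib, ← Finset.mul_sum, sum_mul_ind, sum_ind_mul]
      simp [ind]
    intro l
    have h1 := hn l
    have h2 := hn l₀
    have h3 : ε * w (θ l) = ε * w (θ l₀) := by linarith
    have h4 : ε * (ε * w (θ l)) = ε * (ε * w (θ l₀)) := by rw [h3]
    rw [← mul_assoc, ← mul_assoc, hεε, one_mul, one_mul] at h4
    exact h4

open Classical in
/-- **Coherence lemma.** -/
theorem coherence {Λ : Type*} (r : Λ → Λ → Prop) (b : Λ → I → ℤ) (e : ℤ) (f : I → ℤ)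
    (hf : ∀ i, 0 < f i)
    (hG : ∀ l m, ∑ i, b l i * b m i = e + (if r l m then 1 else 0))
    (hrefl : ∀ l, r l l) (h0 : ∀ l, ∑ i, b l i * f i = 0) (hne : ∃ l m, ¬ r l m) :
    ∃ (ε : ℤ) (w : I → ℤ) (θ : Λ → I) (c : ℤ), (ε = 1 ∨ ε = -1) ∧
      (∀ l i, b l i = w i + ε * ind (θ l) i) ∧ (∀ l m, θ l = θ m ↔ r l m) ∧ ∀ l, w (θ l) = c := by
  obtain ⟨l₀, m₀, h₀⟩ := hne
  have hsq : ∀ l m, ∑ i, (b l i - b m i) ^ 2 = 2 - 2 * (if r l m then 1 else 0) := by
    intro l m
    have : ∀ i, (b l i - b m i) ^ 2 = b l i * b l i - 2 * (b l i * b m i) + b m i * b m i := by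
      intro i; ring
    simp only [this, Finset.sum_add_distrib, Finset.sum_sub_distrib, ← Finset.mul_sum, hG,
      if_pos (hrefl _)]
    ring
  have hsymm : ∀ l m, r l m → r m l := by
    intro l m h
    by_contra hcon
    have h1 := hG l m
    have h2 := hG m l
    rw [if_pos h] at h1
    rw [if_neg hcon] at h2
    have : ∑ i, b l i * b m i = ∑ i, b m i * b l i :=
      Finset.sum_congr rfl fun i _ => mul_comm _ _
    omega
  have hrel : ∀ ν, r l₀ ν → ∀ i, b ν i = b l₀ i := by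
    intro ν h i
    have h1 := hsq ν l₀
    rw [if_pos (hsymm _ _ h)] at h1
    have h2 := (Finset.sum_eq_zero_iff_of_nonneg (fun j _ => sq_nonneg (b ν j - b l₀ j))).1
      (by rw [h1]; norm_num) i (Finset.mem_univ i)
    have h3 := pow_eq_zero_iff (two_ne_zero) |>.1 h2
    linarith
  have key : ∀ ν, ¬ r l₀ ν → ∃ a c, a ≠ c ∧ ∀ i, b ν i - b l₀ i = ind a i - ind c i := by
    intro ν h
    apply exists_ind_sub_ind hf
    · rw [hsq, if_neg (fun h' => h (hsymm _ _ h'))]; norm_num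
    · have : ∀ i, (b ν i - b l₀ i) * f i = b ν i * f i - b l₀ i * f i := by intro i; ring
      simp only [this, Finset.sum_sub_distrib, h0, sub_zero]
  have hinner : ∀ ν₁ ν₂, ¬ r l₀ ν₁ → ¬ r l₀ ν₂ →
      1 ≤ ∑ i, (b ν₁ i - b l₀ i) * (b ν₂ i - b l₀ i) := by
    intro ν₁ ν₂ h1 h2
    have : ∀ i, (b ν₁ i - b l₀ i) * (b ν₂ i - b l₀ i) =
        b ν₁ i * b ν₂ i - b ν₁ i * b l₀ i - b l₀ i * b ν₂ i + b l₀ i * b l₀ i := by
      intro i; ring
    simp only [this, Finset.sum_add_distrib, Finset.sum_sub_distrib, hG, if_pos (hrefl _),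
      if_neg h2, if_neg (fun h' => h1 (hsymm _ _ h'))]
    split_ifs <;> omega
  obtain ⟨α₀, β₀, hαβ, hm₀⟩ := key m₀ h₀
  have hcases : (∀ ν, ¬ r l₀ ν → ∃ a, ∀ i, b ν i - b l₀ i = ind a i - ind β₀ i) ∨
      (∀ ν, ¬ r l₀ ν → ∃ c, ∀ i, b ν i - b l₀ i = ind α₀ i - ind c i) := by
    by_contra hcon
    push Not at hcon
    obtain ⟨⟨ν₁, hν₁, h1⟩, ⟨ν₂, hν₂, h2⟩⟩ := hcon
    obtain ⟨a₁, c₁, hac₁, e₁⟩ := key ν₁ hν₁
    obtain ⟨a₂, c₂, hac₂, e₂⟩ := key ν₂ hν₂
    have hc₁ : c₁ ≠ β₀ := by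
      rintro rfl
      obtain ⟨i, hi⟩ := h1 a₁
      exact hi (e₁ i)
    have ha₂ : a₂ ≠ α₀ := by
      rintro rfl
      obtain ⟨i, hi⟩ := h2 c₂
      exact hi (e₂ i)
    have i1 := hinner ν₁ m₀ hν₁ h₀
    simp only [e₁, hm₀] at i1
    rw [sum_ind_sub_mul, if_neg hc₁] at i1
    have ha₁ : a₁ = α₀ := by
      by_contra hne
      rw [if_neg hne] at i1
      split_ifs at i1 <;> omega
    have i2 := hinner ν₂ m₀ hν₂ h₀
    simp only [e₂, hm₀] at i2
    rw [sum_ind_sub_mul, if_neg ha₂] at i2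
    have hc₂ : c₂ = β₀ := by
      by_contra hne
      rw [if_neg hne] at i2
      split_ifs at i2 <;> omega
    have i3 := hinner ν₁ ν₂ hν₁ hν₂
    simp only [e₁, e₂] at i3
    rw [sum_ind_sub_mul, ha₁, hc₂, if_neg (Ne.symm ha₂), if_neg hc₁, if_neg hαβ] at i3
    split_ifs at i3 <;> omega
  rcases hcases with h | h
  · apply coherence_aux r b e hG hrefl l₀ 1 (Or.inl rfl) β₀ hrel
    intro ν hν
    obtain ⟨a, ha⟩ := h ν hν
    exact ⟨a, fun i => by rw [ha i, one_mul]⟩
  · apply coherence_aux r b e hG hrefl l₀ (-1) (Or.inr rfl) α₀ hrel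
    intro ν hν
    obtain ⟨c, hc⟩ := h ν hν
    exact ⟨c, fun i => by rw [hc i]; ring⟩

end lattice

end Cfsg.Agent.Lib.Helper74
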