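import Mathlib
import Cfsg.Agent.Lib.Helper74.Lattice
import Cfsg.Agent.Lib.Helper80.DualSum

/-!
# Fourier analysis on a finite abelian group with a semiregular group of automorphisms
-/

set_option autoImplicit false
set_option linter.unusedSectionVars false

namespace Cfsg.Agent.Lib.Helper74

open scoped ComplexConjugate
open Cfsg.Agent.Lib.Helper80

section dual

variable {A : Type*} [Group A] [Fintype A]

open Classical in
theorem sum_apply_hom (ψ : A →* ℂˣ) :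
    ∑ x : A, ((ψ x : ℂˣ) : ℂ) = if ψ = 1 then (Nat.card A : ℂ) else 0 := by
  split_ifs with h
  · subst h; simp [Nat.card_eq_fintype_card]
  · obtain ⟨x₀, hx₀⟩ : ∃ x₀, ψ x₀ ≠ 1 := by
      by_contra hcon
      push Not at hcon
      exact h (MonoidHom.ext hcon)
    have key : ∑ x : A, ((ψ x : ℂˣ) : ℂ) = ((ψ x₀ : ℂˣ) : ℂ) * ∑ x : A, ((ψ x : ℂˣ) : ℂ) := by
      rw [Finset.mul_sum, ← Equiv.sum_comp (Equiv.mulLeft x₀)]
      simp
    have h2 : (1 - ((ψ x₀ : ℂˣ) : ℂ)) * ∑ x : A, ((ψ x : ℂˣ) : ℂ) = 0 := by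
      linear_combination key
    rcases mul_eq_zero.1 h2 with h3 | h3
    · exfalso
      apply hx₀
      ext
      rw [Units.val_one]
      linear_combination -h3
    · exact h3

open Classical in
theorem sum_hom_apply [Fintype (A →* ℂˣ)] (hc : ∀ a b : A, a * b = b * a) (x : A) :
    ∑ ψ : A →* ℂˣ, ((ψ x : ℂˣ) : ℂ) = if x = 1 then (Nat.card A : ℂ) else 0 := by
  have hu : (Finset.univ : Finset (A →* ℂˣ)) = dualOf ⊥ := by
    ext φ
    simp [mem_dualOf]
  rw [hu]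
  split_ifs with h
  · rw [sum_dualOf_of_mem ⊥ x (by simp [h]), card_dualOf hc, Subgroup.index_bot]
  · exact sum_dualOf_of_not_mem hc ⊥ x (by simpa using h)

open Classical in
theorem sum_ite_of_unique {T : Type*} [Fintype T] (Q : T → Prop)
    (hQ : ∀ a b, Q a → Q b → a = b) :
    ∑ t : T, (if Q t then (1 : ℂ) else 0) = if ∃ t, Q t then 1 else 0 := by
  split_ifs with h
  · obtain ⟨t₀, h₀⟩ := h
    rw [Finset.sum_eq_single t₀]
    · rw [if_pos h₀]
    · intro b _ hb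
      rw [if_neg]
      intro hb'
      exact hb (hQ _ _ hb' h₀)
    · intro h; exact absurd (Finset.mem_univ _) h
  · apply Finset.sum_eq_zero
    intro t _
    rw [if_neg]
    intro ht
    exact h ⟨t, ht⟩

/-- the coefficient `⟨F, ψ⟩ - ⟨F, 1⟩` -/
noncomputable def bcoef (F : A → ℂ) (ψ : A →* ℂˣ) : ℂ :=
  (Nat.card A : ℂ)⁻¹ * ∑ x, F x * (conj ((ψ x : ℂˣ) : ℂ) - 1)

theorem card_ne_zero' : (Nat.card A : ℂ) ≠ 0 := by
  have : Nat.card A ≠ 0 := Nat.card_pos.ne'
  exact_mod_cast this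

theorem bcoef_one (F : A → ℂ) : bcoef F 1 = 0 := by
  simp [bcoef]

theorem fourier_inversion [Fintype (A →* ℂˣ)] (hc : ∀ a b : A, a * b = b * a) (F : A → ℂ) {y : A}
    (hy : y ≠ 1) : ∑ ψ : A →* ℂˣ, bcoef F ψ * ((ψ y : ℂˣ) : ℂ) = F y := by
  classical
  have h1 : ∀ ψ : A →* ℂˣ, bcoef F ψ * ((ψ y : ℂˣ) : ℂ) =
      (Nat.card A : ℂ)⁻¹ * ∑ x, F x * (((ψ (x⁻¹ * y) : ℂˣ) : ℂ) - ((ψ y : ℂˣ) : ℂ)) := by
    intro ψ
    unfold bcoef
    rw [mul_assoc, Finset.sum_mul]
    congr 1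
    apply Finset.sum_congr rfl
    intro x _
    rw [conj_hom_apply, map_mul, Units.val_mul]
    ring
  simp_rw [h1]
  rw [← Finset.mul_sum, Finset.sum_comm]
  simp_rw [← Finset.mul_sum, Finset.sum_sub_distrib, sum_hom_apply hc]
  rw [if_neg hy]
  simp only [sub_zero, mul_ite, mul_zero]
  have h2 : ∀ x : A, (x⁻¹ * y = 1) ↔ x = y := by
    intro x
    rw [inv_mul_eq_one]
  simp_rw [h2]
  rw [Finset.sum_ite_eq' Finset.univ y, if_pos (Finset.mem_univ _)]
  field_simp [card_ne_zero' (A := A)]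

theorem sum_bcoef_mul {I : Type*} [Fintype I] (X : I → A → ℂ) (g : I → ℂ)
    (hg : ∀ x : A, x ≠ 1 → ∑ i, X i x * g i = 0) (ψ : A →* ℂˣ) :
    ∑ i, bcoef (X i) ψ * g i = 0 := by
  unfold bcoef
  simp_rw [mul_assoc, Finset.sum_mul]
  rw [← Finset.mul_sum, Finset.sum_comm]
  rw [Finset.sum_eq_zero, mul_zero]
  intro x _
  by_cases hx : x = 1
  · subst hx; simp
  · have : ∀ i, X i x * (conj ((ψ x : ℂˣ) : ℂ) - 1) * g i =
        (conj ((ψ x : ℂˣ) : ℂ) - 1) * (X i x * g i) := by intro i; ring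
    simp_rw [this]
    rw [← Finset.mul_sum, hg x hx, mul_zero]

end dual

section semireg

variable {A : Type*} [Group A] [Fintype A] (hc : ∀ a b : A, a * b = b * a)
  (S : Subgroup (MulAut A)) (hS : ∀ σ ∈ S, ∀ x : A, x ≠ 1 → σ x = x → σ = 1)

include hc hS in
/-- a semiregular group of automorphisms is semiregular on the dual group -/
theorem dual_semireg {σ : MulAut A} (hσ : σ ∈ S) {μ : A →* ℂˣ} (hμ : μ ≠ 1)
    (h : ∀ x, μ (σ x) = μ x) : σ = 1 := by
  by_contra hne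
  let φ : A →* A :=
    { toFun := fun x => x⁻¹ * σ x
      map_one' := by simp
      map_mul' := by
        intro a b
        rw [map_mul, mul_inv_rev, hc b⁻¹ a⁻¹, mul_assoc, mul_assoc, ← mul_assoc b⁻¹, hc b⁻¹ (σ a),
          mul_assoc] }
  have hinj : Function.Injective φ := by
    rw [injective_iff_map_eq_one]
    intro x hx
    by_contra hx1
    apply hne
    apply hS σ hσ x hx1
    have : x⁻¹ * σ x = 1 := hx
    rw [inv_mul_eq_one] at this
    exact this.symm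
  have hsurj : Function.Surjective φ := Finite.injective_iff_surjective.1 hinj
  apply hμ
  ext x
  obtain ⟨z, rfl⟩ := hsurj x
  have : μ (φ z) = 1 := by
    show μ (z⁻¹ * σ z) = 1
    rw [map_mul, h z, map_inv, inv_mul_cancel]
  rw [this]
  rfl

include hS in
theorem semireg_unique {σ τ : MulAut A} (hσ : σ ∈ S) (hτ : τ ∈ S) {x : A} (hx : x ≠ 1)
    (h : σ x = τ x) : σ = τ := by
  have h1 : τ⁻¹ * σ = 1 := by
    apply hS _ (S.mul_mem (S.inv_mem hτ) hσ) x hx
    rw [MulAut.mul_apply, h]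
    exact τ.symm_apply_apply x
  exact (inv_mul_eq_one.1 h1).symm

include hc hS in
theorem dual_semireg_unique {σ τ : MulAut A} (hσ : σ ∈ S) (hτ : τ ∈ S) {μ : A →* ℂˣ} (hμ : μ ≠ 1)
    (h : ∀ x, μ (σ x) = μ (τ x)) : σ = τ := by
  have h1 : σ * τ⁻¹ = 1 := by
    apply dual_semireg hc S hS (S.mul_mem hσ (S.inv_mem hτ)) hμ
    intro x
    rw [MulAut.mul_apply, h]
    congr 1
    exact τ.apply_symm_apply x
  exact mul_inv_eq_one.1 h1

open Classical in
theorem sum_twist (l μ : A →* ℂˣ) (hl : l ≠ 1) (hμ : μ ≠ 1) (σ : MulAut A) :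
    ∑ x : A, (conj ((l x : ℂˣ) : ℂ) - 1) * (((μ (σ x) : ℂˣ) : ℂ) - 1) =
      (Nat.card A : ℂ) * ((if ∀ x, μ (σ x) = l x then 1 else 0) + 1) := by
  have h1 : ∀ x : A, (conj ((l x : ℂˣ) : ℂ) - 1) * (((μ (σ x) : ℂˣ) : ℂ) - 1) =
      (((l⁻¹ * μ.comp σ.toMonoidHom) x : ℂˣ) : ℂ) - (((l⁻¹) x : ℂˣ) : ℂ)
        - (((μ.comp σ.toMonoidHom) x : ℂˣ) : ℂ) + 1 := by
    intro x
    rw [conj_hom_apply, MonoidHom.mul_apply, MonoidHom.inv_apply, map_inv, Units.val_mul]
    simp only [MonoidHom.comp_apply, MulEquiv.coe_toMonoidHom]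
    ring
  simp_rw [h1]
  rw [Finset.sum_add_distrib, Finset.sum_sub_distrib, Finset.sum_sub_distrib, sum_apply_hom,
    sum_apply_hom, sum_apply_hom]
  have e1 : l⁻¹ ≠ 1 := fun h => hl ((inv_eq_one (a := l)).1 h)
  have e2 : μ.comp σ.toMonoidHom ≠ 1 := by
    intro h
    apply hμ
    ext x
    have := DFunLike.congr_fun h (σ.symm x)
    simp only [MonoidHom.comp_apply, MulEquiv.coe_toMonoidHom, MulEquiv.apply_symm_apply] at this
    rw [this]; rfl
  have e3 : (l⁻¹ * μ.comp σ.toMonoidHom = 1) ↔ ∀ x, μ (σ x) = l x := by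
    refine (inv_mul_eq_one (a := l) (b := μ.comp σ.toMonoidHom)).trans ?_
    constructor
    · intro h x
      rw [h]; rfl
    · intro h
      ext x
      rw [← h x]; rfl
  rw [if_neg e1, if_neg e2]
  simp only [e3, Finset.sum_const, Finset.card_univ, nsmul_eq_mul, mul_one,
    Nat.card_eq_fintype_card]
  split_ifs <;> ring

open Classical in
include hc hS in
theorem gram [Fintype S] {I : Type*} [Fintype I] (X : I → A → ℂ)
    (hX : ∀ x x' : A, x' ≠ 1 → ∑ i, X i x * conj (X i x') =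
      if ∃ σ ∈ S, σ x = x' then (Nat.card A : ℂ) else 0)
    {l μ : A →* ℂˣ} (hl : l ≠ 1) (hμ : μ ≠ 1) :
    ∑ i, bcoef (X i) l * conj (bcoef (X i) μ) =
      (Nat.card S : ℂ) + if ∃ σ ∈ S, ∀ x, μ (σ x) = l x then 1 else 0 := by
  have hn := card_ne_zero' (A := A)
  have step1 : ∀ i, bcoef (X i) l * conj (bcoef (X i) μ) =
      (Nat.card A : ℂ)⁻¹ * (Nat.card A : ℂ)⁻¹ * ∑ x, ∑ x',
        (conj ((l x : ℂˣ) : ℂ) - 1) * (((μ x' : ℂˣ) : ℂ) - 1) * (X i x * conj (X i x')) := by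
    intro i
    unfold bcoef
    rw [map_mul, map_inv₀, Complex.conj_natCast, map_sum]
    rw [mul_mul_mul_comm, Finset.sum_mul_sum]
    congr 1
    apply Finset.sum_congr rfl
    intro x _
    apply Finset.sum_congr rfl
    intro x' _
    rw [map_mul, map_sub, Complex.conj_conj, map_one]
    ring
  simp_rw [step1]
  rw [← Finset.mul_sum, Finset.sum_comm]
  have step2 : ∀ x : A, ∑ i, ∑ x', (conj ((l x : ℂˣ) : ℂ) - 1) * (((μ x' : ℂˣ) : ℂ) - 1) *
      (X i x * conj (X i x')) =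
      (Nat.card A : ℂ) * ∑ σ : S, (conj ((l x : ℂˣ) : ℂ) - 1) *
        (((μ ((σ : MulAut A) x) : ℂˣ) : ℂ) - 1) := by
    intro x
    rw [Finset.sum_comm]
    have : ∀ x' : A, ∑ i, (conj ((l x : ℂˣ) : ℂ) - 1) * (((μ x' : ℂˣ) : ℂ) - 1) *
        (X i x * conj (X i x')) = (Nat.card A : ℂ) * ∑ σ : S,
          if (σ : MulAut A) x = x' then (conj ((l x : ℂˣ) : ℂ) - 1) * (((μ x' : ℂˣ) : ℂ) - 1)
            else 0 := by
      intro x'
      rw [← Finset.mul_sum]
      by_cases hx' : x' = 1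
      · subst hx'; simp
      · rw [hX x x' hx']
        have hu := sum_ite_of_unique (fun σ : S => (σ : MulAut A) x = x') (by
          intro a b ha hb
          apply Subtype.ext
          apply semireg_unique S hS a.2 b.2 (x := x)
          · rintro rfl
            apply hx'
            rw [← ha, map_one]
          · rw [ha, hb])
        have hex : (∃ σ ∈ S, σ x = x') ↔ ∃ t : S, (t : MulAut A) x = x' := by
          constructor
          · rintro ⟨σ, h1, h2⟩; exact ⟨⟨σ, h1⟩, h2⟩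
          · rintro ⟨σ, h2⟩; exact ⟨σ.1, σ.2, h2⟩
        have h3 : ∀ σ : S, (if (σ : MulAut A) x = x' then
            (conj ((l x : ℂˣ) : ℂ) - 1) * (((μ x' : ℂˣ) : ℂ) - 1) else 0) =
            (conj ((l x : ℂˣ) : ℂ) - 1) * (((μ x' : ℂˣ) : ℂ) - 1) *
              (if (σ : MulAut A) x = x' then (1 : ℂ) else 0) := by
          intro σ; split_ifs <;> simp
        simp_rw [h3]
        rw [← Finset.mul_sum, hu]
        simp only [hex]
        split_ifs <;> ring
    simp_rw [this]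
    rw [← Finset.mul_sum, Finset.sum_comm]
    congr 1
    apply Finset.sum_congr rfl
    intro σ _
    rw [Finset.sum_ite_eq Finset.univ, if_pos (Finset.mem_univ _)]
  simp_rw [step2]
  rw [← Finset.mul_sum, Finset.sum_comm]
  simp_rw [sum_twist l μ hl hμ]
  rw [← Finset.mul_sum, Finset.sum_add_distrib]
  have hu := sum_ite_of_unique (fun σ : S => ∀ x, μ ((σ : MulAut A) x) = l x) (by
    intro a b ha hb
    apply Subtype.ext
    apply dual_semireg_unique hc S hS a.2 b.2 hμ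
    intro x
    rw [ha, hb])
  have hex : (∃ σ ∈ S, ∀ x, μ (σ x) = l x) ↔ ∃ t : S, ∀ x, μ ((t : MulAut A) x) = l x := by
    constructor
    · rintro ⟨σ, h1, h2⟩; exact ⟨⟨σ, h1⟩, h2⟩
    · rintro ⟨σ, h2⟩; exact ⟨σ.1, σ.2, h2⟩
  rw [show (∑ σ : S, if ∀ x, μ ((σ : MulAut A) x) = l x then (1 : ℂ) else 0) =
    if ∃ t : S, ∀ x, μ ((t : MulAut A) x) = l x then 1 else 0 from by convert hu]
  simp only [hex, Finset.sum_const, Finset.card_univ, nsmul_eq_mul, mul_one,
    Nat.card_eq_fintype_card]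
  field_simp
  ring

end semireg

end Cfsg.Agent.Lib.Helper74
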