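import Mathlib
import Cfsg.Agent.Lib.Helper74.Semireg

/-!
# The structure of a family of "generalized characters" on an abelian group with semiregular action
-/

set_option autoImplicit false
set_option linter.unusedSectionVars false

namespace Cfsg.Agent.Lib.Helper74

open scoped ComplexConjugate
open Cfsg.Agent.Lib.Helper80

section data

variable {A : Type*} [Group A] [Fintype A] (hc : ∀ a b : A, a * b = b * a)
  (S : Subgroup (MulAut A)) (hS : ∀ σ ∈ S, ∀ x : A, x ≠ 1 → σ x = x → σ = 1)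

/-- `ψ'` is a conjugate of `ψ` -/
def DRel (ψ ψ' : A →* ℂˣ) : Prop := ∃ σ ∈ S, ∀ x, ψ' (σ x) = ψ x

theorem dRel_refl (ψ : A →* ℂˣ) : DRel S ψ ψ := ⟨1, S.one_mem, fun _ => rfl⟩

theorem dRel_symm {ψ ψ' : A →* ℂˣ} (h : DRel S ψ ψ') : DRel S ψ' ψ := by
  obtain ⟨σ, hσ, h⟩ := h
  refine ⟨σ⁻¹, S.inv_mem hσ, fun x => ?_⟩
  rw [← h]
  congr 1
  exact σ.apply_symm_apply x

theorem dRel_ne_one {ψ ψ' : A →* ℂˣ} (h : DRel S ψ ψ') (h1 : ψ ≠ 1) : ψ' ≠ 1 := by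
  rintro rfl
  obtain ⟨σ, hσ, h⟩ := h
  apply h1
  ext x
  rw [← h]
  rfl

include hc in
theorem card_hom [Fintype (A →* ℂˣ)] : Fintype.card (A →* ℂˣ) = Nat.card A := by
  have h := sum_hom_apply hc (1 : A)
  simp only [map_one, Units.val_one, Finset.sum_const, Finset.card_univ, nsmul_eq_mul, mul_one,
    if_true] at h
  exact_mod_cast h

open Classical in
include hc hS in
theorem card_orb [Fintype S] [Fintype (A →* ℂˣ)] {ψ : A →* ℂˣ} (hψ : ψ ≠ 1) :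
    (Finset.univ.filter (fun ψ' => DRel S ψ ψ')).card = Nat.card S := by
  have : Finset.univ.filter (fun ψ' => DRel S ψ ψ') =
      Finset.univ.image (fun σ : S => ψ.comp ((σ : MulAut A)⁻¹).toMonoidHom) := by
    ext ψ'
    simp only [Finset.mem_filter, Finset.mem_univ, true_and, Finset.mem_image]
    constructor
    · rintro ⟨σ, hσ, h⟩
      refine ⟨⟨σ, hσ⟩, ?_⟩
      ext x
      simp only [MonoidHom.comp_apply, MulEquiv.coe_toMonoidHom]
      rw [← h]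
      congr 2
      exact σ.apply_symm_apply x
    · rintro ⟨σ, rfl⟩
      refine ⟨σ.1, σ.2, fun x => ?_⟩
      simp only [MonoidHom.comp_apply, MulEquiv.coe_toMonoidHom]
      congr 1
      exact (σ : MulAut A).symm_apply_apply x
  rw [this, Finset.card_image_of_injective, Finset.card_univ, Nat.card_eq_fintype_card]
  intro σ τ h
  apply Subtype.ext
  have h2 : (σ : MulAut A)⁻¹ = (τ : MulAut A)⁻¹ := by
    apply dual_semireg_unique hc S hS (S.inv_mem σ.2) (S.inv_mem τ.2) hψ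
    intro x
    exact DFunLike.congr_fun h x
  exact inv_injective h2

/-- the outcome of the coherence argument -/
structure SemiregData {I : Type*} [DecidableEq I] (X : I → A → ℂ) (ε : ℤ) (w : I → ℤ)
    (θ : (A →* ℂˣ) → I) (c : ℤ) : Prop where
  hε : ε = 1 ∨ ε = -1
  hb : ∀ ψ : A →* ℂˣ, ψ ≠ 1 → ∀ i, bcoef (X i) ψ = ((w i + ε * ind (θ ψ) i : ℤ) : ℂ)
  hθ : ∀ ψ ψ' : A →* ℂˣ, ψ ≠ 1 → ψ' ≠ 1 → (θ ψ = θ ψ' ↔ DRel S ψ ψ')
  hw : ∀ ψ : A →* ℂˣ, ψ ≠ 1 → w (θ ψ) = c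
  hn : ∀ ψ : A →* ℂˣ, ψ ≠ 1 → ∀ [Fintype I], ∑ i, (w i + ε * ind (θ ψ) i) ^ 2 = (Nat.card S : ℤ) + 1

open Classical in
include hc hS in
theorem exists_not_dRel (hm : Nat.card S + 1 < Nat.card A) :
    ∃ l m : A →* ℂˣ, l ≠ 1 ∧ m ≠ 1 ∧ ¬ DRel S l m := by
  have : Fintype S := Fintype.ofFinite _
  have : Fintype (A →* ℂˣ) := Fintype.ofFinite _
  have hcard := card_hom hc (A := A)
  obtain ⟨l, hl⟩ : ∃ l : A →* ℂˣ, l ≠ 1 := by
    have : 1 < Fintype.card (A →* ℂˣ) := by omega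
    exact Fintype.exists_ne_of_one_lt_card this 1
  by_contra hcon
  push Not at hcon
  have hsub : (Finset.univ : Finset (A →* ℂˣ)) ⊆
      insert 1 (Finset.univ.filter (fun ψ' => DRel S l ψ')) := by
    intro m _
    by_cases hm1 : m = 1
    · simp [hm1]
    · simp [hcon l m hl hm1]
  have h1 := Finset.card_le_card hsub
  have h2 := Finset.card_insert_le (1 : A →* ℂˣ) (Finset.univ.filter (fun ψ' => DRel S l ψ'))
  rw [card_orb hc S hS hl] at h2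
  rw [Finset.card_univ] at h1
  omega

open Classical in
include hc hS in
theorem exists_semiregData {I : Type*} [Fintype I] [DecidableEq I] (X : I → A → ℂ)
    (hX : ∀ x x' : A, x' ≠ 1 → ∑ i, X i x * conj (X i x') =
      if ∃ σ ∈ S, σ x = x' then (Nat.card A : ℂ) else 0)
    (hint : ∀ i (ψ : A →* ℂˣ), ∃ z : ℤ, bcoef (X i) ψ = z)
    (f : I → ℤ) (hf : ∀ i, 0 < f i) (hf0 : ∀ x : A, x ≠ 1 → ∑ i, X i x * (f i : ℂ) = 0)
    (hm : Nat.card S + 1 < Nat.card A) :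
    ∃ (ε : ℤ) (w : I → ℤ) (θ : (A →* ℂˣ) → I) (c : ℤ), SemiregData S X ε w θ c := by
  have : Fintype S := Fintype.ofFinite _
  choose bz hbz using hint
  obtain ⟨l₀, m₀, hl₀, hm₀, hlm⟩ := exists_not_dRel hc S hS hm
  have hG : ∀ l m : {ψ : A →* ℂˣ // ψ ≠ 1}, ∑ i, bz i l.1 * bz i m.1 =
      (Nat.card S : ℤ) + (if DRel S l.1 m.1 then 1 else 0) := by
    intro l m
    have h := gram hc S hS X hX l.2 m.2
    simp_rw [hbz, map_intCast] at h
    have h' : ((∑ i, bz i l.1 * bz i m.1 : ℤ) : ℂ) =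
        (((Nat.card S : ℤ) + (if DRel S l.1 m.1 then 1 else 0) : ℤ) : ℂ) := by
      push_cast
      rw [h]
      unfold DRel
      split_ifs <;> simp
    exact_mod_cast h'
  obtain ⟨ε, w, θ, c, h1, h2, h3, h4⟩ := coherence (Λ := {ψ : A →* ℂˣ // ψ ≠ 1})
    (fun l m => DRel S l.1 m.1) (fun l i => bz i l.1) (Nat.card S : ℤ) f hf hG
    (fun l => dRel_refl S l.1)
    (by
      intro l
      have h := sum_bcoef_mul X (fun i => (f i : ℂ)) hf0 l.1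
      simp_rw [hbz] at h
      exact_mod_cast h)
    ⟨⟨l₀, hl₀⟩, ⟨m₀, hm₀⟩, hlm⟩
  refine ⟨ε, w, fun ψ => if h : ψ ≠ 1 then θ ⟨ψ, h⟩ else θ ⟨l₀, hl₀⟩, c, h1, ?_, ?_, ?_, ?_⟩
  · intro ψ hψ i
    rw [dif_pos hψ, hbz, h2 ⟨ψ, hψ⟩ i]
  · intro ψ ψ' hψ hψ'
    rw [dif_pos hψ, dif_pos hψ']
    exact h3 ⟨ψ, hψ⟩ ⟨ψ', hψ'⟩
  · intro ψ hψ
    rw [dif_pos hψ]
    exact h4 ⟨ψ, hψ⟩
  · intro ψ hψ inst
    rw [dif_pos hψ]
    have h := hG ⟨ψ, hψ⟩ ⟨ψ, hψ⟩
    rw [if_pos (dRel_refl S ψ)] at h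
    rw [← h]
    apply Finset.sum_congr (by ext; simp)
    intro i _
    have := h2 ⟨ψ, hψ⟩ i
    simp only at this
    rw [this]
    ring

end data

section conseq

variable {A : Type*} [Group A] [Fintype A] (hc : ∀ a b : A, a * b = b * a)
  {S : Subgroup (MulAut A)} (hS : ∀ σ ∈ S, ∀ x : A, x ≠ 1 → σ x = x → σ = 1)
  [Fintype (A →* ℂˣ)] {I : Type*} [Fintype I] [DecidableEq I] {X : I → A → ℂ} {ε : ℤ}
  {w : I → ℤ} {θ : (A →* ℂˣ) → I} {c : ℤ} (D : SemiregData S X ε w θ c)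

open Classical in
/-- the exceptional indices -/
noncomputable def Yf (θ : (A →* ℂˣ) → I) : Finset I :=
  (Finset.univ.filter (fun ψ : A →* ℂˣ => ψ ≠ 1)).image θ

theorem mem_Yf {i : I} : i ∈ Yf θ ↔ ∃ ψ : A →* ℂˣ, ψ ≠ 1 ∧ θ ψ = i := by
  classical
  simp [Yf]

open Classical in
include hc in
theorem sum_ne_one {y : A} (hy : y ≠ 1) :
    ∑ ψ ∈ Finset.univ.filter (fun ψ : A →* ℂˣ => ψ ≠ 1), ((ψ y : ℂˣ) : ℂ) = -1 := by
  have h := sum_hom_apply hc y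
  rw [if_neg hy, ← Finset.sum_filter_add_sum_filter_not Finset.univ (fun ψ : A →* ℂˣ => ψ ≠ 1)] at h
  have h2 : Finset.univ.filter (fun ψ : A →* ℂˣ => ¬ ψ ≠ 1) = {1} := by
    ext ψ; simp
  rw [h2, Finset.sum_singleton] at h
  simp only [MonoidHom.one_apply, Units.val_one] at h
  linear_combination h

open Classical in
include hc D in
theorem SemiregData.value (i : I) {y : A} (hy : y ≠ 1) :
    X i y = -(w i : ℂ) + ε * ∑ ψ ∈ Finset.univ.filter (fun ψ : A →* ℂˣ => ψ ≠ 1 ∧ θ ψ = i),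
      ((ψ y : ℂˣ) : ℂ) := by
  rw [← fourier_inversion hc (X i) hy,
    ← Finset.sum_filter_add_sum_filter_not Finset.univ (fun ψ : A →* ℂˣ => ψ ≠ 1)]
  have h2 : Finset.univ.filter (fun ψ : A →* ℂˣ => ¬ ψ ≠ 1) = {1} := by
    ext ψ; simp
  rw [h2, Finset.sum_singleton, bcoef_one, zero_mul, add_zero]
  have h3 : ∀ ψ ∈ Finset.univ.filter (fun ψ : A →* ℂˣ => ψ ≠ 1),
      bcoef (X i) ψ * ((ψ y : ℂˣ) : ℂ) = (w i : ℂ) * ((ψ y : ℂˣ) : ℂ) +
        ε * (if θ ψ = i then ((ψ y : ℂˣ) : ℂ) else 0) := by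
    intro ψ hψ
    rw [D.hb ψ (Finset.mem_filter.1 hψ).2 i, ind_apply]
    by_cases h : θ ψ = i
    · rw [if_pos h, if_pos h.symm]; push_cast; ring
    · rw [if_neg h, if_neg (fun h' => h h'.symm)]; push_cast; ring
  rw [Finset.sum_congr rfl h3, Finset.sum_add_distrib, ← Finset.mul_sum, ← Finset.mul_sum,
    sum_ne_one hc hy, ← Finset.sum_filter, Finset.filter_filter]
  ring

include hc D in
theorem SemiregData.value_of_not_mem {i : I} (hi : i ∉ Yf θ) {y : A} (hy : y ≠ 1) :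
    X i y = -(w i : ℂ) := by
  classical
  rw [D.value hc i hy, Finset.filter_false_of_mem, Finset.sum_empty, mul_zero, add_zero]
  intro ψ _ h
  exact hi (mem_Yf.2 ⟨ψ, h⟩)

open Classical in
include hc D in
theorem SemiregData.value_theta {μ : A →* ℂˣ} (hμ : μ ≠ 1) {y : A} (hy : y ≠ 1) :
    X (θ μ) y = -(c : ℂ) + ε * ∑ ψ ∈ Finset.univ.filter (fun ψ : A →* ℂˣ => DRel S μ ψ),
      ((ψ y : ℂˣ) : ℂ) := by
  rw [D.value hc (θ μ) hy, D.hw μ hμ]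
  congr 3
  ext ψ
  simp only [Finset.mem_filter, Finset.mem_univ, true_and]
  constructor
  · rintro ⟨h1, h2⟩
    exact (D.hθ μ ψ hμ h1).1 h2.symm
  · intro h
    have h1 := dRel_ne_one S h hμ
    exact ⟨h1, ((D.hθ μ ψ hμ h1).2 h).symm⟩

include hc hS D in
theorem SemiregData.card_Yf : (Yf θ).card * Nat.card S = Nat.card A - 1 := by
  classical
  have : Fintype S := Fintype.ofFinite _
  have h1 : (Finset.univ.filter (fun ψ : A →* ℂˣ => ψ ≠ 1)).card = Nat.card A - 1 := by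
    rw [Finset.filter_ne' Finset.univ (1 : A →* ℂˣ), Finset.card_erase_of_mem (Finset.mem_univ _),
      Finset.card_univ, card_hom hc]
  rw [← h1, Finset.card_eq_sum_card_fiberwise (f := θ) (t := Yf θ)
    (fun ψ hψ => Finset.mem_image_of_mem θ hψ)]
  rw [Finset.sum_const_nat (m := Nat.card S)]
  intro i hi
  obtain ⟨μ, hμ, rfl⟩ := mem_Yf.1 hi
  rw [← card_orb hc S hS hμ]
  congr 1
  ext ψ
  simp only [Finset.mem_filter, Finset.mem_univ, true_and]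
  constructor
  · rintro ⟨h1, h2⟩
    exact (D.hθ μ ψ hμ h1).1 h2.symm
  · intro h
    have h1 := dRel_ne_one S h hμ
    exact ⟨h1, ((D.hθ μ ψ hμ h1).2 h).symm⟩

include D in
theorem SemiregData.sum_w_mul (g : I → ℂ) (γ : ℂ) (hγ : ∀ i ∈ Yf θ, g i = γ) :
    ∑ i, (w i : ℂ) * g i = ((Yf θ).card : ℂ) * c * γ + ∑ i ∈ (Yf θ)ᶜ, (w i : ℂ) * g i := by
  rw [← Finset.sum_add_sum_compl (Yf θ)]
  congr 1
  rw [Finset.sum_congr rfl (g := fun _ => (c : ℂ) * γ), Finset.sum_const, nsmul_eq_mul]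
  · ring
  · intro i hi
    obtain ⟨μ, hμ, rfl⟩ := mem_Yf.1 hi
    rw [D.hw μ hμ, hγ _ hi]

include D in
theorem SemiregData.rel0 (g : I → ℂ) (hg : ∀ x : A, x ≠ 1 → ∑ i, X i x * g i = 0)
    {μ : A →* ℂˣ} (hμ : μ ≠ 1) : ∑ i, (w i : ℂ) * g i + ε * g (θ μ) = 0 := by
  have h := sum_bcoef_mul X g hg μ
  simp_rw [D.hb μ hμ] at h
  rw [← h]
  push_cast
  simp_rw [add_mul, Finset.sum_add_distrib]
  congr 1
  simp_rw [mul_assoc]
  rw [← Finset.mul_sum]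
  congr 1
  simp [ind_apply]

include D in
theorem SemiregData.const (g : I → ℂ) (hg : ∀ x : A, x ≠ 1 → ∑ i, X i x * g i = 0)
    {μ μ' : A →* ℂˣ} (hμ : μ ≠ 1) (hμ' : μ' ≠ 1) : g (θ μ) = g (θ μ') := by
  have h1 := D.rel0 g hg hμ
  have h2 := D.rel0 g hg hμ'
  have h3 : (ε : ℂ) * (g (θ μ) - g (θ μ')) = 0 := by linear_combination h1 - h2
  have hε : (ε : ℂ) ≠ 0 := by
    rcases D.hε with h | h <;> rw [h] <;> norm_num
  rcases mul_eq_zero.1 h3 with h | h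
  · exact absurd h hε
  · exact sub_eq_zero.1 h

include D in
theorem SemiregData.rel (g : I → ℂ) (hg : ∀ x : A, x ≠ 1 → ∑ i, X i x * g i = 0)
    {μ : A →* ℂˣ} (hμ : μ ≠ 1) :
    (((Yf θ).card : ℂ) * c + ε) * g (θ μ) + ∑ i ∈ (Yf θ)ᶜ, (w i : ℂ) * g i = 0 := by
  have h1 := D.rel0 g hg hμ
  rw [D.sum_w_mul g (g (θ μ))] at h1
  · linear_combination h1
  · intro i hi
    obtain ⟨μ', hμ', rfl⟩ := mem_Yf.1 hi
    exact D.const g hg hμ' hμ

include D in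
theorem SemiregData.norm {μ : A →* ℂˣ} (hμ : μ ≠ 1) :
    (c + ε) ^ 2 + (((Yf θ).card : ℤ) - 1) * c ^ 2 + ∑ i ∈ (Yf θ)ᶜ, w i ^ 2 =
      (Nat.card S : ℤ) + 1 := by
  rw [← D.hn μ hμ]
  have h1 : ∀ i, (w i + ε * ind (θ μ) i) ^ 2 = w i ^ 2 + (2 * ε * w i + ε ^ 2) * ind (θ μ) i := by
    intro i
    rw [ind_apply]
    split_ifs <;> ring
  simp_rw [h1]
  rw [Finset.sum_add_distrib, sum_mul_ind, D.hw μ hμ, ← Finset.sum_add_sum_compl (Yf θ)]
  rw [Finset.sum_congr rfl (g := fun _ => c ^ 2) (s₁ := Yf θ), Finset.sum_const, nsmul_eq_mul]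
  · ring
  · intro i hi
    obtain ⟨μ', hμ', rfl⟩ := mem_Yf.1 hi
    rw [D.hw μ' hμ']

include hc hS D in
theorem SemiregData.of_eq_zero (hm : Nat.card S + 1 < Nat.card A) {i : I} (hi : X i = 0) :
    w i = 0 ∧ i ∉ Yf θ := by
  have hε : ε ≠ 0 := by
    rcases D.hε with h | h <;> rw [h] <;> norm_num
  have h0 : ∀ ψ : A →* ℂˣ, ψ ≠ 1 → w i + ε * ind (θ ψ) i = 0 := by
    intro ψ hψ
    have := D.hb ψ hψ i
    rw [hi] at this
    simp only [bcoef, Pi.zero_apply, zero_mul, Finset.sum_const_zero, mul_zero] at this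
    exact_mod_cast this.symm
  obtain ⟨l, m, hl, hm1, hlm⟩ := exists_not_dRel hc S hS hm
  have hne : θ l ≠ θ m := fun h => hlm ((D.hθ l m hl hm1).1 h)
  have hw : w i = 0 := by
    by_cases h : i = θ l
    · have := h0 m hm1
      rw [ind_apply, if_neg (by rw [h]; exact hne)] at this
      simpa using this
    · have := h0 l hl
      rw [ind_apply, if_neg h] at this
      simpa using this
  refine ⟨hw, fun hmem => ?_⟩
  obtain ⟨ψ, hψ, rfl⟩ := mem_Yf.1 hmem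
  have := h0 ψ hψ
  rw [hw, ind_apply, if_pos rfl] at this
  simp at this
  exact hε this

include hc hS D in
theorem SemiregData.not_mem_of_const (hm : Nat.card S + 1 < Nat.card A) {i : I} {γ : ℂ}
    (hi : ∀ ψ : A →* ℂˣ, ψ ≠ 1 → bcoef (X i) ψ = γ) : i ∉ Yf θ := by
  have hε : ε ≠ 0 := by
    rcases D.hε with h | h <;> rw [h] <;> norm_num
  intro hmem
  obtain ⟨μ, hμ, rfl⟩ := mem_Yf.1 hmem
  obtain ⟨l, m, hl, hm1, hlm⟩ := exists_not_dRel hc S hS hm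
  have hne : θ l ≠ θ m := fun h => hlm ((D.hθ l m hl hm1).1 h)
  obtain ⟨l', hl', hne'⟩ : ∃ l' : A →* ℂˣ, l' ≠ 1 ∧ θ μ ≠ θ l' := by
    by_cases h : θ μ = θ l
    · exact ⟨m, hm1, by rw [h]; exact hne⟩
    · exact ⟨l, hl, h⟩
  have h1 := D.hb μ hμ (θ μ)
  have h2 := D.hb l' hl' (θ μ)
  rw [hi μ hμ] at h1
  rw [hi l' hl', h1, ind_apply, ind_apply, if_pos rfl, if_neg hne'] at h2
  have h3 : w (θ μ) + ε * 1 = w (θ μ) + ε * 0 := by exact_mod_cast h2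
  apply hε
  linarith

theorem bcoef_const_one {ψ : A →* ℂˣ} (hψ : ψ ≠ 1) : bcoef (fun _ : A => (1 : ℂ)) ψ = -1 := by
  classical
  unfold bcoef
  simp only [one_mul]
  rw [Finset.sum_sub_distrib, ← map_sum, sum_apply_hom, if_neg hψ]
  simp only [map_zero, Finset.sum_const, Finset.card_univ, nsmul_eq_mul, mul_one, zero_sub,
    Nat.card_eq_fintype_card]
  have : (Fintype.card A : ℂ) ≠ 0 := by exact_mod_cast Fintype.card_ne_zero
  field_simp

include D in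
/-- with exactly two exceptional indices, the roles of the two can be exchanged -/
theorem SemiregData.swap (h2 : (Yf θ).card = 2) :
    ∃ (w' : I → ℤ) (θ' : (A →* ℂˣ) → I), SemiregData S X (-ε) w' θ' (c + ε) ∧ Yf θ' = Yf θ := by
  obtain ⟨y₁, y₂, hne, hY⟩ := Finset.card_eq_two.1 h2
  have hmem : ∀ ψ : A →* ℂˣ, ψ ≠ 1 → θ ψ = y₁ ∨ θ ψ = y₂ := by
    intro ψ hψ
    have : θ ψ ∈ Yf θ := mem_Yf.2 ⟨ψ, hψ, rfl⟩
    rw [hY] at this
    simpa using this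
  obtain ⟨ψ₁, hψ₁, hθ₁⟩ : ∃ ψ : A →* ℂˣ, ψ ≠ 1 ∧ θ ψ = y₁ := mem_Yf.1 (by rw [hY]; simp)
  obtain ⟨ψ₂, hψ₂, hθ₂⟩ : ∃ ψ : A →* ℂˣ, ψ ≠ 1 ∧ θ ψ = y₂ := mem_Yf.1 (by rw [hY]; simp)
  have hpt : ∀ ψ : A →* ℂˣ, ψ ≠ 1 → ∀ i,
      (w i + ε * (ind y₁ i + ind y₂ i)) + (-ε) * ind (if θ ψ = y₁ then y₂ else y₁) i =
        w i + ε * ind (θ ψ) i := by
    intro ψ hψ i
    rcases hmem ψ hψ with h | h
    · rw [if_pos h, h]; ring
    · rw [if_neg (by rw [h]; exact hne.symm), h]; ring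
  refine ⟨fun i => w i + ε * (ind y₁ i + ind y₂ i), fun ψ => if θ ψ = y₁ then y₂ else y₁,
    ⟨?_, ?_, ?_, ?_, ?_⟩, ?_⟩
  · rcases D.hε with h | h
    · right; rw [h]
    · left; rw [h]; norm_num
  · intro ψ hψ i
    rw [hpt ψ hψ i]
    exact D.hb ψ hψ i
  · intro ψ ψ' hψ hψ'
    rw [← D.hθ ψ ψ' hψ hψ']
    rcases hmem ψ hψ with h | h <;> rcases hmem ψ' hψ' with h' | h'
    · simp [h, h']
    · rw [h, h', if_pos rfl, if_neg hne.symm]
      exact ⟨fun e => absurd e hne.symm, fun e => absurd e hne⟩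
    · rw [h, h', if_pos rfl, if_neg hne.symm]
      exact ⟨fun e => absurd e hne, fun e => absurd e hne.symm⟩
    · simp [h, h']
  · intro ψ hψ
    have hw1 : w y₁ = c := by rw [← hθ₁]; exact D.hw ψ₁ hψ₁
    have hw2 : w y₂ = c := by rw [← hθ₂]; exact D.hw ψ₂ hψ₂
    rcases hmem ψ hψ with h | h
    · simp only [if_pos h, hw2, ind_apply, if_neg hne.symm, if_true]
      ring
    · simp only [if_neg (show ¬ θ ψ = y₁ by rw [h]; exact hne.symm), hw1, ind_apply, if_neg hne,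
        if_true]
      ring
  · intro ψ hψ inst
    rw [← D.hn ψ hψ]
    apply Finset.sum_congr rfl
    intro i _
    rw [hpt ψ hψ i]
  · ext i
    rw [mem_Yf, hY]
    simp only [Finset.mem_insert, Finset.mem_singleton]
    constructor
    · rintro ⟨ψ, _, rfl⟩
      split_ifs
      · right; rfl
      · left; rfl
    · rintro (rfl | rfl)
      · exact ⟨ψ₂, hψ₂, by rw [if_neg (by rw [hθ₂]; exact hne.symm)]⟩
      · exact ⟨ψ₁, hψ₁, by rw [if_pos hθ₁]⟩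

end conseq

end Cfsg.Agent.Lib.Helper74
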