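import Mathlib
import Cfsg.Agent.Lib.Helper74.AbSylowBlock
import Cfsg.Agent.Lib.Helper74.SemiregData
import Cfsg.Agent.Lib.Helper15.CharTools

/-!
# Abelian Sylow subgroups with semiregular `N(P)/C(P)`: the structure of the principal block
-/

set_option autoImplicit false
set_option linter.unusedSectionVars false

namespace Cfsg.Agent.Lib.Helper74

open Cfsg Cfsg.Agent.Lib.Helper78
open scoped ComplexConjugate

section ab2

variable {G : Type*} [Group G] [Finite G] {p : ℕ} [Fact p.Prime] {M : Ideal Cfsg.AlgInt}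
  (hM : Cfsg.IsPModular p M) (P : Sylow p G) (hab : IsMulCommutative P)
  (hfrob : ∀ y : G, y ∈ (P : Subgroup G) → y ≠ 1 →
    Subgroup.centralizer ({y} : Set G) ⊓ Subgroup.normalizer ((P : Subgroup G) : Set G) =
      Subgroup.centralizer ((P : Subgroup G) : Set G))

/-- the automorphisms of `P` induced by `N(P)` -/
def autS : Subgroup (MulAut ↥(P : Subgroup G)) := (P : Subgroup G).normalizerMonoidHom.range

theorem mem_autS {σ : MulAut ↥(P : Subgroup G)} : σ ∈ autS P ↔
    ∃ n ∈ Subgroup.normalizer ((P : Subgroup G) : Set G),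
      ∀ x : ↥(P : Subgroup G), ((σ x : ↥(P : Subgroup G)) : G) = n * x * n⁻¹ := by
  unfold autS
  rw [MonoidHom.mem_range]
  constructor
  · rintro ⟨n, rfl⟩
    exact ⟨n.1, n.2, fun x => rfl⟩
  · rintro ⟨n, hn, h⟩
    refine ⟨⟨n, hn⟩, ?_⟩
    ext x
    rw [h x]
    rfl

theorem card_autS : Nat.card (autS P) =
    (Subgroup.centralizer ((P : Subgroup G) : Set G)).relIndex
      (Subgroup.normalizer ((P : Subgroup G) : Set G)) := by
  unfold autS
  rw [Subgroup.relIndex, ← Subgroup.normalizerMonoidHom_ker, Subgroup.index_ker]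

include hfrob in
theorem autS_semireg : ∀ σ ∈ autS P, ∀ x : ↥(P : Subgroup G), x ≠ 1 → σ x = x → σ = 1 := by
  intro σ hσ x hx hσx
  obtain ⟨n, hn, h⟩ := (mem_autS P).1 hσ
  have hx1 : (x : G) ≠ 1 := fun h => hx (Subtype.ext h)
  have h1 : n ∈ Subgroup.centralizer ({(x : G)} : Set G) ⊓
      Subgroup.normalizer ((P : Subgroup G) : Set G) := by
    refine Subgroup.mem_inf.2 ⟨?_, hn⟩
    rw [Subgroup.mem_centralizer_singleton_iff]
    have := h x
    rw [hσx] at this
    rw [eq_mul_inv_iff_mul_eq] at this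
    exact this.symm
  rw [hfrob x x.2 hx1, Subgroup.mem_centralizer_iff] at h1
  ext z
  rw [h z, MulAut.one_apply, ← h1 z z.2]
  group

theorem ab_hc (hab : IsMulCommutative P) : ∀ a b : ↥(P : Subgroup G), a * b = b * a :=
  fun a b => hab.is_comm.comm a b

theorem dRel_autS_iff (ψ ψ' : ↥(P : Subgroup G) →* ℂˣ) : DRel (autS P) ψ ψ' ↔
    ∃ n : G, n ∈ Subgroup.normalizer ((P : Subgroup G) : Set G) ∧
      ∀ w w' : ↥(P : Subgroup G), (w' : G) = n * w * n⁻¹ → ψ' w' = ψ w := by
  constructor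
  · rintro ⟨σ, hσ, h⟩
    obtain ⟨n, hn, hn'⟩ := (mem_autS P).1 hσ
    refine ⟨n, hn, fun w w' hw => ?_⟩
    rw [← h w]
    congr 1
    apply Subtype.ext
    rw [hw, hn']
  · rintro ⟨n, hn, h⟩
    refine ⟨(P : Subgroup G).normalizerMonoidHom ⟨n, hn⟩, ⟨_, rfl⟩, fun x => ?_⟩
    exact h x _ rfl

open Classical in
/-- the restrictions to `P` of the members of the principal block (and `0` for the others) -/
noncomputable def resX (M : Ideal Cfsg.AlgInt) (P : Sylow p G) :
    IrrCharacter G → ↥(P : Subgroup G) → ℂ :=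
  fun χ x => if χ ∈ principalBlock M G then (χ : G → ℂ) x else 0

theorem resX_of_mem {χ : IrrCharacter G} (h : χ ∈ principalBlock M G) (x : ↥(P : Subgroup G)) :
    resX M P χ x = (χ : G → ℂ) x := by
  unfold resX
  rw [if_pos h]

theorem resX_of_not_mem {χ : IrrCharacter G} (h : χ ∉ principalBlock M G) :
    resX M P χ = 0 := by
  funext x
  unfold resX
  rw [if_neg h]
  rfl

open Classical in
include hM hab hfrob in
theorem resX_col (x x' : ↥(P : Subgroup G)) (hx' : x' ≠ 1) :
    ∑ χ : IrrCharacter G, resX M P χ x * conj (resX M P χ x') =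
      if ∃ σ ∈ autS P, σ x = x' then (Nat.card ↥(P : Subgroup G) : ℂ) else 0 := by
  have hx1 : (x' : G) ≠ 1 := fun h => hx' (Subtype.ext h)
  have h := ab_col_inner hM P hab hfrob x'.2 hx1 (isPPart_self (exists_orderOf_eq_pow P x.2))
  rw [finsum_mem_irr] at h
  have h2 : ∀ χ : IrrCharacter G, resX M P χ x * conj (resX M P χ x') =
      if χ ∈ principalBlock M G then (χ : G → ℂ) x * conj ((χ : G → ℂ) x') else 0 := by
    intro χ
    unfold resX
    split_ifs <;> simp
  simp_rw [h2]
  rw [h]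
  have h3 : IsConj (x : G) (x' : G) ↔ ∃ σ ∈ autS P, σ x = x' := by
    constructor
    · intro hc
      obtain ⟨n, hn, hn'⟩ := ab_fusion P hab x.2 x'.2 hc
      exact ⟨(P : Subgroup G).normalizerMonoidHom ⟨n, hn⟩, ⟨_, rfl⟩, Subtype.ext hn'⟩
    · rintro ⟨σ, hσ, h⟩
      obtain ⟨n, hn, hn'⟩ := (mem_autS P).1 hσ
      rw [isConj_iff]
      exact ⟨n, by rw [← hn', h]⟩
  simp only [h3]

theorem resX_int [Fintype ↥(P : Subgroup G)] (χ : IrrCharacter G) (ψ : ↥(P : Subgroup G) →* ℂˣ) :
    ∃ z : ℤ, bcoef (resX M P χ) ψ = z := by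
  by_cases h : χ ∈ principalBlock M G
  · have hres : IsCharacter ↥(P : Subgroup G) (fun x : ↥(P : Subgroup G) => (χ : G → ℂ) x) :=
      Helper15.char_restrict (IrrCharacter.isCharacter χ) _
    obtain ⟨a, ha⟩ := Helper15.inner_nat hres (IsIrrCharacter.isCharacter (isIrrCharacter_of_hom ψ))
    obtain ⟨b, hb⟩ := Helper15.inner_nat hres
      (IsIrrCharacter.isCharacter (isIrrCharacter_one (G := ↥(P : Subgroup G))))
    refine ⟨(a : ℤ) - b, ?_⟩
    push_cast
    rw [← ha, ← hb]
    unfold bcoef classInner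
    rw [← mul_sub, ← Finset.sum_sub_distrib]
    congr 1
    apply Finset.sum_congr rfl
    intro x _
    rw [resX_of_mem P h, map_one]
    ring
  · refine ⟨0, ?_⟩
    rw [resX_of_not_mem P h]
    simp [bcoef]

include hM in
/-- orthogonality of the columns of `P^#` to the `p`-regular columns -/
theorem resX_reg {g : G} (hg : ¬ p ∣ orderOf g) (x : ↥(P : Subgroup G)) (hx : x ≠ 1) :
    ∑ χ : IrrCharacter G, resX M P χ x * (χ : G → ℂ) g = 0 := by
  classical
  have : Fintype G := Fintype.ofFinite G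
  have hx1 : (x : G) ≠ 1 := fun h => hx (Subtype.ext h)
  have hpx : p ∣ orderOf (x : G) := by
    obtain ⟨k, hk⟩ := exists_orderOf_eq_pow P x.2
    rw [hk]
    apply dvd_pow_self
    rintro rfl
    rw [pow_zero, orderOf_eq_one_iff] at hk
    exact hx1 hk
  have hg' : ¬ p ∣ orderOf g⁻¹ := by rwa [orderOf_inv]
  have h := weak_block_orthogonality hM (isPBlock_principalBlock (M := M) (G := G)) g⁻¹ (x : G)
    hg' hpx
  rw [finsum_mem_irr] at h
  have h2 := congrArg conj h
  rw [map_sum, map_zero] at h2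
  rw [← h2]
  apply Finset.sum_congr rfl
  intro χ _
  unfold resX
  split_ifs
  · rw [map_mul, Complex.conj_conj, irr_inv, Complex.conj_conj]
    ring
  · simp

include hM hab in
/-- members of the principal block do not vanish on `P` -/
theorem ab_ne_zero {y : G} (hy : y ∈ (P : Subgroup G)) {χ : IrrCharacter G}
    (hχ : χ ∈ principalBlock M G) : (χ : G → ℂ) y ≠ 0 := by
  intro h0
  have h := hχ y
  unfold centralChar at h
  rw [h0] at h
  simp only [mul_one, div_one, mul_zero, zero_div, sub_zero] at h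
  rw [memLocalIdeal_natCast_iff hM] at h
  have h1 := Subgroup.index_dvd_of_le (ab_le_centralizer_singleton P hab hy)
  exact P.not_dvd_index (h.trans h1)

end ab2

end Cfsg.Agent.Lib.Helper74
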