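import Mathlib
import Cfsg.Agent.Lib.Helper74.AbSylowData

/-!
# Abelian Sylow subgroups with semiregular `N(P)/C(P)`: consequences of the coherence data
-/

set_option autoImplicit false
set_option linter.unusedSectionVars false

namespace Cfsg.Agent.Lib.Helper74

open Cfsg Cfsg.Agent.Lib.Helper78
open scoped ComplexConjugate

section ab3

variable {G : Type*} [Group G] [Finite G] {p : ℕ} [Fact p.Prime] {M : Ideal Cfsg.AlgInt}
  (hM : Cfsg.IsPModular p M) (P : Sylow p G) (hab : IsMulCommutative P)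
  (hfrob : ∀ y : G, y ∈ (P : Subgroup G) → y ≠ 1 →
    Subgroup.centralizer ({y} : Set G) ⊓ Subgroup.normalizer ((P : Subgroup G) : Set G) =
      Subgroup.centralizer ((P : Subgroup G) : Set G))
  [Fintype ↥(P : Subgroup G)] [Fintype (↥(P : Subgroup G) →* ℂˣ)] [DecidableEq (IrrCharacter G)]
  (hm : Nat.card (autS P) + 1 < Nat.card ↥(P : Subgroup G))

include hM hab hfrob hm in
theorem ab_exists_data : ∃ (ε : ℤ) (w : IrrCharacter G → ℤ)
    (θ : (↥(P : Subgroup G) →* ℂˣ) → IrrCharacter G) (c : ℤ),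
    SemiregData (autS P) (resX M P) ε w θ c :=
  exists_semiregData (ab_hc P hab) (autS P) (autS_semireg P hfrob) (resX M P)
    (fun x x' hx' => (resX_col hM P hab hfrob x x' hx').trans (by congr)) (resX_int P)
    (fun χ => (charDegree (χ : G → ℂ) : ℤ)) (fun χ => by exact_mod_cast irr_charDegree_pos χ)
    (fun x hx => by
      have := resX_reg hM P (g := 1) (by
        rw [orderOf_one]; exact (Fact.out : p.Prime).one_lt.ne' ∘ Nat.dvd_one.1) x hx
      simpa [irr_one_eq] using this) hm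

variable {ε : ℤ} {w : IrrCharacter G → ℤ} {θ : (↥(P : Subgroup G) →* ℂˣ) → IrrCharacter G} {c : ℤ}
  (D : SemiregData (autS P) (resX M P) ε w θ c)

include hab hfrob hm D in
theorem ab_Y_subset {χ : IrrCharacter G} (h : χ ∈ Yf θ) : χ ∈ principalBlock M G := by
  by_contra hn
  exact (D.of_eq_zero (ab_hc P hab) (autS_semireg P hfrob) hm (resX_of_not_mem P hn)).2 h

include hab hfrob hm D in
theorem ab_w_eq_zero {χ : IrrCharacter G} (h : χ ∉ principalBlock M G) : w χ = 0 :=
  (D.of_eq_zero (ab_hc P hab) (autS_semireg P hfrob) hm (resX_of_not_mem P h)).1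

include hM hab hfrob hm D in
theorem ab_triv_not_mem : trivIrr G ∉ Yf θ := by
  apply D.not_mem_of_const (ab_hc P hab) (autS_semireg P hfrob) hm (γ := -1)
  intro ψ hψ
  have : resX M P (trivIrr G) = fun _ => 1 := by
    funext x
    rw [resX_of_mem P (trivIrr_mem_principalBlock (pmod_isPrime hM))]
    rfl
  rw [this]
  exact bcoef_const_one hψ

include hM hab hfrob D in
theorem ab_value_X {χ : IrrCharacter G} (hχ : χ ∈ principalBlock M G) (hY : χ ∉ Yf θ) {z y : G}
    (hz : IsPPart p z y) (hy : y ∈ (P : Subgroup G)) (hy1 : y ≠ 1) :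
    (χ : G → ℂ) z = -(w χ : ℂ) := by
  rw [ab_value_of_pPart hM P hab hfrob hy hy1 hz χ hχ]
  have := D.value_of_not_mem (ab_hc P hab) hY (y := ⟨y, hy⟩) (fun h => hy1 (congrArg Subtype.val h))
  rw [resX_of_mem P hχ] at this
  exact this

include hM hab hfrob D in
theorem ab_w_ne_zero (hP1 : Nat.card P ≠ 1) {χ : IrrCharacter G} (hχ : χ ∈ principalBlock M G)
    (hY : χ ∉ Yf θ) : w χ ≠ 0 := by
  intro h0
  obtain ⟨y, hy⟩ : ∃ y : ↥(P : Subgroup G), y ≠ 1 := by
    by_contra hcon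
    push Not at hcon
    apply hP1
    have : Subsingleton ↥(P : Subgroup G) := ⟨fun a b => by rw [hcon a, hcon b]⟩
    exact Nat.card_unique
  have hy1 : (y : G) ≠ 1 := fun h => hy (Subtype.ext h)
  have := ab_value_X hM P hab hfrob D hχ hY (isPPart_self (exists_orderOf_eq_pow P y.2)) y.2 hy1
  rw [h0] at this
  apply ab_ne_zero hM P hab y.2 hχ
  simpa using this

include hM hab hfrob hm D in
theorem ab_value_Y {μ : ↥(P : Subgroup G) →* ℂˣ} (hμ : μ ≠ 1) {z : G} {y : ↥(P : Subgroup G)}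
    (hz : IsPPart p z (y : G)) (hy1 : (y : G) ≠ 1) :
    (θ μ : G → ℂ) z = -(c : ℂ) + (ε : ℂ) * ∑ᶠ ψ' ∈ {ψ' : ↥(P : Subgroup G) →* ℂˣ | ∃ n : G,
      n ∈ Subgroup.normalizer ((P : Subgroup G) : Set G) ∧
        ∀ w w' : ↥(P : Subgroup G), (w' : G) = n * w * n⁻¹ → ψ' w' = μ w}, ((ψ' y : ℂˣ) : ℂ) := by
  classical
  have hmem : θ μ ∈ principalBlock M G :=
    ab_Y_subset P hab hfrob hm D (mem_Yf.2 ⟨μ, hμ, rfl⟩)
  rw [ab_value_of_pPart hM P hab hfrob y.2 hy1 hz _ hmem]
  have := D.value_theta (ab_hc P hab) hμ (y := y) (fun h => hy1 (congrArg Subtype.val h))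
  rw [resX_of_mem P hmem] at this
  rw [this]
  congr 2
  rw [← finsum_mem_coe_finset]
  apply finsum_mem_congr _ (fun _ _ => rfl)
  ext ψ'
  simp only [Finset.coe_filter, Finset.mem_univ, true_and, dRel_autS_iff]

include hab hfrob D in
theorem ab_card_Y : (Yf θ).card = (Nat.card P - 1) / Nat.card (autS P) := by
  have h := D.card_Yf (ab_hc P hab) (autS_semireg P hfrob)
  have hpos : 0 < Nat.card (autS P) := Nat.card_pos
  exact (Nat.div_eq_of_eq_mul_left hpos h.symm).symm

include hab hfrob hm D in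
theorem ab_sum_compl {R : Type*} [AddCommMonoid R] (F : IrrCharacter G → R)
    (hF : ∀ χ, w χ = 0 → F χ = 0) :
    ∑ i ∈ (Yf θ)ᶜ, F i = ∑ᶠ χ ∈ principalBlock M G \ (↑(Yf θ) : Set (IrrCharacter G)), F χ := by
  classical
  rw [finsum_mem_irr]
  conv_rhs => rw [← Finset.sum_add_sum_compl (Yf θ)]
  rw [Finset.sum_eq_zero (s := Yf θ), zero_add]
  · apply Finset.sum_congr rfl
    intro χ hχ
    by_cases hB : χ ∈ principalBlock M G
    · rw [if_pos ⟨hB, by simpa using hχ⟩]
    · rw [if_neg (fun h => hB h.1), hF χ (ab_w_eq_zero P hab hfrob hm D hB)]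
  · intro χ hχ
    rw [if_neg (fun h => h.2 (by simpa using hχ))]

end ab3

end Cfsg.Agent.Lib.Helper74
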