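import Mathlib

/-!
# Symmetric algebras: definitions (helper74)

Interface for the algebra part of Brandt's theorem `k(B) = 2 ↔ |D| = 2` (S4607).
-/

set_option autoImplicit false

namespace Cfsg.Agent.Lib.Helper74.SymAlg

variable {F A : Type*} [Field F] [Ring A] [Algebra F A]

/-- `lam` is a symmetrizing form of the `F`-algebra `A`. -/
structure IsSymForm (lam : A →ₗ[F] F) : Prop where
  symm : ∀ a b, lam (a * b) = lam (b * a)
  nondeg : ∀ a, (∀ b, lam (a * b) = 0) → a = 0

variable (F A) in
/-- The space of trace forms (linear forms vanishing on all commutators). -/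
def traceForms : Submodule F (Module.Dual F A) where
  carrier := {f | ∀ a b, f (a * b) = f (b * a)}
  add_mem' := fun {f g} hf hg a b => by
    rw [LinearMap.add_apply, LinearMap.add_apply, hf a b, hg a b]
  zero_mem' := fun a b => rfl
  smul_mem' := fun c f hf a b => by
    rw [LinearMap.smul_apply, LinearMap.smul_apply, hf a b]

theorem mem_traceForms {f : Module.Dual F A} :
    f ∈ traceForms F A ↔ ∀ a b, f (a * b) = f (b * a) := Iff.rfl

end Cfsg.Agent.Lib.Helper74.SymAlg
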