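import Mathlib
import Cfsg.Agent.Lib.Helper74.SymAlgDefs
import Cfsg.Agent.Lib.Helper77.GroupAlg

/-!
# The block algebra `k[G] e` as a symmetric algebra (helper74)

For a central idempotent `e` of `k[G]` the quotient `k[G] ⧸ {x | x e = 0}` is a symmetric algebra;
its dimension, its centre and its central idempotents in terms of `k[G]`.
-/

set_option autoImplicit false
set_option linter.unusedSectionVars false

namespace Cfsg.Agent.Lib.Helper74.BlockAlg

open Module MonoidAlgebra Cfsg.Agent.Lib.Helper77 Cfsg.Agent.Lib.Helper74.SymAlg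

variable {k : Type*} [Field k] {G : Type*} [Group G] [Fintype G]

/-- the annihilator of `e` -/
def annI (e : MonoidAlgebra k G) : Ideal (MonoidAlgebra k G) where
  carrier := {x | x * e = 0}
  add_mem' := fun {a b} ha hb => by
    show (a + b) * e = 0
    rw [add_mul, ha, hb, add_zero]
  zero_mem' := zero_mul e
  smul_mem' := fun c x hx => by
    show (c * x) * e = 0
    rw [mul_assoc, hx, mul_zero]

theorem mem_annI {e x : MonoidAlgebra k G} : x ∈ annI e ↔ x * e = 0 := Iff.rfl

theorem annI_isTwoSided {e : MonoidAlgebra k G} (hc : ∀ x, e * x = x * e) :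
    (annI e).IsTwoSided :=
  ⟨fun {a} b ha => by
    show (a * b) * e = 0
    rw [mul_assoc, ← hc b, ← mul_assoc, ha, zero_mul]⟩

/-- coefficient at `1` -/
noncomputable def lam1 : MonoidAlgebra k G →ₗ[k] k :=
  (Finsupp.lapply (1 : G)) ∘ₗ (coeffLinearEquiv k).toLinearMap

theorem lam1_apply (a : MonoidAlgebra k G) : lam1 a = a.coeff 1 := rfl

theorem lam1_mul (a b : MonoidAlgebra k G) : lam1 (a * b) = ∑ y, a.coeff y * b.coeff y⁻¹ := by
  rw [lam1_apply, coeff_mul_left]
  simp

theorem lam1_comm (a b : MonoidAlgebra k G) : lam1 (a * b) = lam1 (b * a) := by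
  rw [lam1_mul, lam1_mul]
  refine Fintype.sum_equiv (Equiv.inv G) _ _ fun y => ?_
  simp [mul_comm]

theorem lam1_mul_single (a : MonoidAlgebra k G) (g : G) :
    lam1 (a * single g⁻¹ 1) = a.coeff g := by
  classical
  rw [lam1_mul, Finset.sum_eq_single g]
  · simp
  · intro y _ hy
    rw [coeff_single, Finsupp.single_apply, if_neg (by simpa using fun h => hy h.symm), mul_zero]
  · simp

theorem eq_zero_of_lam1 {a : MonoidAlgebra k G} (h : ∀ b, lam1 (a * b) = 0) : a = 0 :=
  ma_ext fun g => by rw [← lam1_mul_single, h]; rfl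

/-- the central elements of the block `k[G] e` -/
def zE (e : MonoidAlgebra k G) : Submodule k (MonoidAlgebra k G) where
  carrier := {x | (∀ r, x * r = r * x) ∧ x * e = x}
  add_mem' := fun {a b} ha hb =>
    ⟨fun r => by rw [add_mul, mul_add, ha.1, hb.1], by rw [add_mul, ha.2, hb.2]⟩
  zero_mem' := ⟨fun r => by simp, zero_mul e⟩
  smul_mem' := fun c x hx =>
    ⟨fun r => by rw [smul_mul_assoc, mul_smul_comm, hx.1], by rw [smul_mul_assoc, hx.2]⟩

theorem mem_zE {e x : MonoidAlgebra k G} : x ∈ zE e ↔ (∀ r, x * r = r * x) ∧ x * e = x := Iff.rfl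

section quot

variable {e : MonoidAlgebra k G} (he : e * e = e) (hc : ∀ x, e * x = x * e)
  [(annI e).IsTwoSided]

local notation "Ae" => (MonoidAlgebra k G ⧸ annI e)

theorem mk_eq_zero {x : MonoidAlgebra k G} : Ideal.Quotient.mk (annI e) x = 0 ↔ x * e = 0 :=
  Ideal.Quotient.eq_zero_iff_mem

theorem mk_eq_mk {x y : MonoidAlgebra k G} :
    Ideal.Quotient.mk (annI e) x = Ideal.Quotient.mk (annI e) y ↔ x * e = y * e := by
  rw [← sub_eq_zero, ← map_sub, mk_eq_zero, sub_mul, sub_eq_zero]

theorem restrict_annI : (annI e).restrictScalars k = LinearMap.ker (LinearMap.mulRight k e) := by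
  ext x
  rfl

/-- dimension of the block algebra -/
theorem finrank_quot :
    finrank k Ae = finrank k (LinearMap.range (LinearMap.mulRight k e)) := by
  rw [← (Submodule.Quotient.restrictScalarsEquiv k (annI e)).finrank_eq, restrict_annI]
  exact (LinearMap.quotKerEquivRange (LinearMap.mulRight k e)).finrank_eq

/-- the symmetrizing form of the block algebra -/
noncomputable def lamQ (e : MonoidAlgebra k G) [(annI e).IsTwoSided] :
    (MonoidAlgebra k G ⧸ annI e) →ₗ[k] k :=
  (Submodule.liftQ ((annI e).restrictScalars k) (lam1 ∘ₗ LinearMap.mulRight k e)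
    (fun x hx => by
      have hx' : x * e = 0 := hx
      show lam1 (x * e) = 0
      rw [hx', map_zero])) ∘ₗ (Submodule.Quotient.restrictScalarsEquiv k (annI e)).symm.toLinearMap

theorem lamQ_mk (x : MonoidAlgebra k G) : lamQ e (Ideal.Quotient.mk (annI e) x) = lam1 (x * e) :=
  rfl

include hc in
theorem isSymForm_lamQ : IsSymForm (lamQ e) := by
  constructor
  · intro a b
    obtain ⟨a, rfl⟩ := Ideal.Quotient.mk_surjective a
    obtain ⟨b, rfl⟩ := Ideal.Quotient.mk_surjective b
    rw [← map_mul, ← map_mul, lamQ_mk, lamQ_mk, mul_assoc, lam1_comm, mul_assoc, hc a, mul_assoc]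
  · intro a h
    obtain ⟨a, rfl⟩ := Ideal.Quotient.mk_surjective a
    rw [mk_eq_zero]
    apply eq_zero_of_lam1
    intro b
    have := h (Ideal.Quotient.mk (annI e) b)
    rw [← map_mul, lamQ_mk] at this
    rw [mul_assoc, hc b, ← mul_assoc]
    exact this

include he hc in
/-- the centre of the block algebra -/
theorem finrank_center : finrank k (Subalgebra.center k Ae) = finrank k (zE e) := by
  symm
  let f : zE e →ₗ[k] Subalgebra.center k Ae :=
    { toFun := fun x => ⟨Ideal.Quotient.mk (annI e) x.1, by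
        rw [Subalgebra.mem_center_iff]
        intro b
        obtain ⟨b, rfl⟩ := Ideal.Quotient.mk_surjective b
        rw [← map_mul, ← map_mul, x.2.1 b]⟩
      map_add' := fun x y => Subtype.ext (map_add _ _ _)
      map_smul' := fun c x => Subtype.ext (map_smul (Ideal.Quotient.mkₐ k (annI e)) c x.1) }
  have hf : Function.Bijective f := by
    constructor
    · rw [← LinearMap.ker_eq_bot, LinearMap.ker_eq_bot']
      intro x hx
      have h1 : Ideal.Quotient.mk (annI e) x.1 = 0 := congrArg Subtype.val hx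
      rw [mk_eq_zero, x.2.2] at h1
      exact Subtype.ext h1
    · rintro ⟨c, hcc⟩
      obtain ⟨y, rfl⟩ := Ideal.Quotient.mk_surjective c
      rw [Subalgebra.mem_center_iff] at hcc
      refine ⟨⟨y * e, ?_, by rw [mul_assoc, he]⟩, ?_⟩
      · intro r
        have h1 := hcc (Ideal.Quotient.mk (annI e) r)
        rw [← map_mul, ← map_mul, mk_eq_mk] at h1
        rw [mul_assoc, hc r, ← mul_assoc, ← h1, mul_assoc]
      · apply Subtype.ext
        show Ideal.Quotient.mk (annI e) (y * e) = Ideal.Quotient.mk (annI e) y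
        rw [mk_eq_mk, mul_assoc, he]
  exact (LinearEquiv.ofBijective f hf).finrank_eq

include he hc in
/-- central idempotents of the block algebra of a primitive central idempotent -/
theorem central_idem
    (hprim : ∀ ε : MonoidAlgebra k G, (∀ r, ε * r = r * ε) → ε * ε = ε → ε * e = e ∨ ε * e = 0) :
    ∀ c ∈ Subalgebra.center k Ae, c * c = c → c = 0 ∨ c = 1 := by
  intro c hcc hci
  obtain ⟨y, rfl⟩ := Ideal.Quotient.mk_surjective c
  rw [Subalgebra.mem_center_iff] at hcc
  rw [← map_mul, mk_eq_mk] at hci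
  have h1 : ∀ r, (y * e) * r = r * (y * e) := by
    intro r
    have h1 := hcc (Ideal.Quotient.mk (annI e) r)
    rw [← map_mul, ← map_mul, mk_eq_mk] at h1
    rw [mul_assoc, hc r, ← mul_assoc, ← h1, mul_assoc]
  have h2 : (y * e) * (y * e) = y * e := by
    rw [mul_assoc, ← mul_assoc e, hc y, mul_assoc y e e, he, ← mul_assoc, hci]
  rcases hprim _ h1 h2 with h | h
  · right
    rw [← map_one (Ideal.Quotient.mk (annI e)), mk_eq_mk, one_mul]
    rwa [mul_assoc, he] at h
  · left
    rw [mk_eq_zero]
    rwa [mul_assoc, he] at h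

end quot

end Cfsg.Agent.Lib.Helper74.BlockAlg
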