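import Mathlib
import Cfsg.Agent.Lib.Helper77.Dict2

/-!
# The dimension of a block algebra (helper74)

`dim_F F[G] ē_B = ∑_{χ ∈ B} χ(1)²`, by Nakayama's lemma over the local ring at `M`.
-/

set_option autoImplicit false
set_option linter.unusedSectionVars false

namespace Cfsg.Agent.Lib.Helper74.BlockDim

open Module MonoidAlgebra Cfsg Cfsg.Agent.Lib.Helper77 Cfsg.Agent.Lib.Helper78

universe u

section field

variable {k : Type*} [Field k] {G : Type u} [Group G] [Fintype G]

/-- rank of right multiplication by `e` -/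
noncomputable def rk (e : MonoidAlgebra k G) : ℕ :=
  finrank k (LinearMap.range (LinearMap.mulRight k e))

theorem rk_add_rk {e : MonoidAlgebra k G} (he : e * e = e) : rk e + rk (1 - e) = Fintype.card G := by
  have h1 : LinearMap.range (LinearMap.mulRight k (1 - e)) = LinearMap.ker (LinearMap.mulRight k e) := by
    ext x
    constructor
    · rintro ⟨y, rfl⟩
      show y * (1 - e) * e = 0
      rw [mul_assoc, sub_mul, one_mul, he, sub_self, mul_zero]
    · intro hx
      have hx' : x * e = 0 := hx
      exact ⟨x, by show x * (1 - e) = x; rw [mul_sub, mul_one, hx', sub_zero]⟩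
  unfold rk
  rw [h1, LinearMap.finrank_range_add_finrank_ker,
    Module.finrank_eq_card_basis (MonoidAlgebra.basis G k)]

theorem mul_eq_sum_smul (w e : MonoidAlgebra k G) :
    w * e = ∑ g, w.coeff g • (single g 1 * e) := by
  conv_lhs => rw [eq_sum_single w, Finset.sum_mul]
  refine Finset.sum_congr rfl fun g _ => ?_
  rw [← smul_mul_assoc, smul_single, smul_eq_mul, mul_one]

end field

section trace

variable {G : Type u} [Group G] [Fintype G]

theorem rk_eq_trace {e : MonoidAlgebra ℂ G} (he : e * e = e) :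
    (rk e : ℂ) = (Fintype.card G : ℂ) * e.coeff 1 := by
  classical
  have hproj : LinearMap.IsProj (LinearMap.range (LinearMap.mulRight ℂ e))
      (LinearMap.mulRight ℂ e) := by
    refine ⟨fun x => ⟨x, rfl⟩, ?_⟩
    rintro _ ⟨y, rfl⟩
    show y * e * e = y * e
    rw [mul_assoc, he]
  have h1 := hproj.trace
  unfold rk
  rw [← h1, LinearMap.trace_eq_matrix_trace ℂ (MonoidAlgebra.basis G ℂ), Matrix.trace]
  have h2 : ∀ g : G, Matrix.diag (LinearMap.toMatrix (MonoidAlgebra.basis G ℂ)
      (MonoidAlgebra.basis G ℂ) (LinearMap.mulRight ℂ e)) g = e.coeff 1 := by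
    intro g
    rw [Matrix.diag_apply, LinearMap.toMatrix_apply]
    show ((MonoidAlgebra.basis G ℂ) g * e).coeff g = e.coeff 1
    have : (MonoidAlgebra.basis G ℂ) g = single g 1 := by
      apply (MonoidAlgebra.basis G ℂ).repr.injective
      rw [Basis.repr_self]
      rfl
    rw [this, coeff_mul_left, Finset.sum_eq_single g]
    · simp
    · intro y _ hy
      rw [coeff_single, Finsupp.single_apply, if_neg (fun h => hy h.symm), zero_mul]
    · simp
  rw [Finset.sum_congr rfl fun g _ => h2 g, Finset.sum_const, Finset.card_univ, nsmul_eq_mul]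

end trace

section nak

variable {G : Type u} [Group G] [Fintype G] (M : Ideal AlgInt) [hP : M.IsPrime]

/-- extension of scalars `R[G] → ℂ[G]` -/
noncomputable abbrev iC : MonoidAlgebra (Rloc M) G →+* MonoidAlgebra ℂ G :=
  mapRingHom G (Rloc M).subtype

theorem coeff_iC (a : MonoidAlgebra (Rloc M) G) (g : G) : (iC M a).coeff g = cfun M a g := by
  rw [coeff_mapRingHom]; rfl

theorem iC_smul (c : Rloc M) (a : MonoidAlgebra (Rloc M) G) : iC M (c • a) = (c : ℂ) • iC M a := by
  apply ma_ext
  intro g
  rw [coeff_mapRingHom, coeff_smul, coeff_smul, Finsupp.smul_apply, Finsupp.smul_apply,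
    coeff_mapRingHom, smul_eq_mul, smul_eq_mul, map_mul]
  rfl

theorem piF_smul (c : Rloc M) (a : MonoidAlgebra (Rloc M) G) :
    piF M (c • a) = resMap M c • piF M a := by
  apply ma_ext
  intro g
  rw [coeff_mapRingHom, coeff_smul, coeff_smul, Finsupp.smul_apply, Finsupp.smul_apply,
    coeff_mapRingHom, smul_eq_mul, smul_eq_mul, map_mul]

theorem piF_surjective : Function.Surjective (piF M : MonoidAlgebra (Rloc M) G → _) := by
  intro ε
  refine ⟨ofFun fun g => Function.surjInv (resMap_surjective M) (ε.coeff g), ?_⟩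
  apply ma_ext
  intro g
  rw [coeff_mapRingHom, coeff_ofFun]
  exact Function.surjInv_eq (resMap_surjective M) _

theorem mloc_le_jacobson : mloc M ≤ Ideal.jacobson ⊥ := by
  intro x hx
  rw [Ideal.mem_jacobson_bot]
  intro y
  have h1 : ¬ MemLocalIdeal M ((x * y + 1 : Rloc M) : ℂ) := by
    intro h
    have h2 : (x * y + 1 : Rloc M) ∈ mloc M := h
    have h3 : x * y ∈ mloc M := (mloc M).mul_mem_right y hx
    have h4 : (1 : Rloc M) ∈ mloc M := by
      have := (mloc M).sub_mem h2 h3
      simpa using this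
    exact not_memLocalIdeal_one hP h4
  have hinv : MemLocalRing M ((x * y + 1 : Rloc M) : ℂ)⁻¹ :=
    MemLocalRing.inv hP (x * y + 1 : Rloc M).2 h1
  refine IsUnit.of_mul_eq_one (⟨_, hinv⟩ : Rloc M) ?_
  apply Subtype.ext
  rw [Subring.coe_mul, Subring.coe_one]
  exact mul_inv_cancel₀ (ne_zero_of_not_memLocalIdeal hP h1)

theorem mul_eq_sum_smul' (w e : MonoidAlgebra (Rloc M) G) :
    w * e = ∑ g, w.coeff g • (single g 1 * e) := by
  conv_lhs => rw [eq_sum_single w, Finset.sum_mul]
  refine Finset.sum_congr rfl fun g _ => ?_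
  rw [← smul_mul_assoc, smul_single, smul_eq_mul, mul_one]

/-- **Nakayama**: the complex rank of an idempotent of `R[G]` is at most its rank mod `M`. -/
theorem rk_iC_le {e : MonoidAlgebra (Rloc M) G} (he : e * e = e) :
    rk (iC M e) ≤ rk (piF M e) := by
  classical
  set WF := LinearMap.range (LinearMap.mulRight (ResF M) (piF M e)) with hWF
  set r := finrank (ResF M) WF with hr
  let b : Basis (Fin r) (ResF M) WF := Module.finBasis (ResF M) WF
  have hb : ∀ i, ∃ x : MonoidAlgebra (Rloc M) G, x * e = x ∧ piF M x = (b i : MonoidAlgebra _ G) := by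
    intro i
    obtain ⟨y, hy⟩ := (b i).2
    obtain ⟨y', rfl⟩ := piF_surjective M y
    refine ⟨y' * e, by rw [mul_assoc, he], ?_⟩
    rw [map_mul]
    exact hy
  choose x hxe hx using hb
  set N' : Submodule (Rloc M) (MonoidAlgebra (Rloc M) G) :=
    LinearMap.range (LinearMap.mulRight (Rloc M) e) with hN'
  set N'' : Submodule (Rloc M) (MonoidAlgebra (Rloc M) G) := Submodule.span (Rloc M) (Set.range x)
    with hN''
  have hfg : N'.FG := by
    rw [hN', LinearMap.range_eq_map]
    exact Submodule.FG.map _ (Module.Finite.fg_top)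
  have hmemN' : ∀ z : MonoidAlgebra (Rloc M) G, z * e = z → z ∈ N' := fun z hz => ⟨z, hz⟩
  have hle : N' ≤ N'' ⊔ mloc M • N' := by
    rintro _ ⟨y, rfl⟩
    have hz : (LinearMap.mulRight (Rloc M) e) y = y * e := rfl
    rw [hz]
    have h1 : piF M (y * e) ∈ WF := ⟨piF M y, by rw [map_mul]; rfl⟩
    have h2 := b.sum_repr ⟨_, h1⟩
    have h3 : ∑ i, b.repr ⟨_, h1⟩ i • (b i : MonoidAlgebra (ResF M) G) = piF M (y * e) := by
      have h := congrArg Subtype.val h2
      rw [AddSubmonoidClass.coe_finsetSum] at h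
      exact h
    let c : Fin r → Rloc M := fun i => Function.surjInv (resMap_surjective M) (b.repr ⟨_, h1⟩ i)
    have hc : ∀ i, resMap M (c i) = b.repr ⟨_, h1⟩ i := fun i =>
      Function.surjInv_eq (resMap_surjective M) _
    set z' := y * e - ∑ i, c i • x i with hz'
    have hz'e : z' * e = z' := by
      rw [hz', sub_mul, mul_assoc, he, Finset.sum_mul]
      congr 1
      exact Finset.sum_congr rfl fun i _ => by rw [smul_mul_assoc, hxe]
    have hz'0 : piF M z' = 0 := by
      rw [hz', map_sub, map_sum, ← h3, sub_eq_zero]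
      exact Finset.sum_congr rfl fun i _ => by rw [piF_smul, hc, hx]
    have hz'm : z' ∈ mloc M • N' := by
      rw [← hz'e, mul_eq_sum_smul']
      refine Submodule.sum_mem _ fun g _ => ?_
      refine Submodule.smul_mem_smul ?_ ⟨single g 1, rfl⟩
      exact (piF_eq_zero_iff M z').1 hz'0 g
    have : y * e = ∑ i, c i • x i + z' := by rw [hz']; abel
    rw [this]
    refine Submodule.add_mem_sup ?_ hz'm
    exact Submodule.sum_mem _ fun i _ => Submodule.smul_mem _ _ (Submodule.subset_span ⟨i, rfl⟩)
  have hNN : N' ≤ N'' := Submodule.le_of_le_smul_of_le_jacobson_bot hfg (mloc_le_jacobson M) hle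
  have hspan : ∀ z ∈ N'', iC M z ∈ Submodule.span ℂ (Set.range fun i => iC M (x i)) := by
    intro z hz
    induction hz using Submodule.span_induction with
    | mem z hz =>
      obtain ⟨i, rfl⟩ := hz
      exact Submodule.subset_span ⟨i, rfl⟩
    | zero => rw [map_zero]; exact Submodule.zero_mem _
    | add a b _ _ ha hb => rw [map_add]; exact Submodule.add_mem _ ha hb
    | smul c a _ ha => rw [iC_smul]; exact Submodule.smul_mem _ _ ha
  have hle2 : LinearMap.range (LinearMap.mulRight ℂ (iC M e))
      ≤ Submodule.span ℂ (Set.range fun i => iC M (x i)) := by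
    rintro _ ⟨w, rfl⟩
    show w * iC M e ∈ _
    rw [mul_eq_sum_smul]
    refine Submodule.sum_mem _ fun g _ => Submodule.smul_mem _ _ ?_
    have h1 : (single g 1 : MonoidAlgebra ℂ G) * iC M e = iC M (single g 1 * e) := by
      rw [map_mul]
      congr 1
      apply ma_ext
      intro y
      rw [coeff_mapRingHom, coeff_single, coeff_single, Finsupp.single_apply, Finsupp.single_apply]
      split_ifs <;> simp
    rw [h1]
    exact hspan _ (hNN ⟨single g 1, rfl⟩)
  calc rk (iC M e) ≤ finrank ℂ (Submodule.span ℂ (Set.range fun i => iC M (x i))) :=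
        Submodule.finrank_mono hle2
    _ ≤ Fintype.card (Fin r) := finrank_range_le_card _
    _ = rk (piF M e) := by rw [Fintype.card_fin]; rfl

/-- the rank of an idempotent of `R[G]` does not change under reduction -/
theorem rk_piF_eq {e : MonoidAlgebra (Rloc M) G} (he : e * e = e) :
    rk (piF M e) = rk (iC M e) := by
  have he' : (1 - e) * (1 - e) = 1 - e := by
    rw [mul_sub, sub_mul, sub_mul, he]; simp
  have h1 := rk_iC_le M he
  have h2 := rk_iC_le M he'
  have h3 : rk (iC M e) + rk (1 - iC M e) = Fintype.card G := rk_add_rk (by rw [← map_mul, he])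
  have h4 : rk (piF M e) + rk (1 - piF M e) = Fintype.card G := rk_add_rk (by rw [← map_mul, he])
  rw [map_sub, map_sub, map_one, map_one] at h2
  omega

/-- **Dimension of a block algebra.** -/
theorem rk_ebar {B : Set (IrrCharacter G)} (hB : IsPBlock M B) :
    rk (ebar M B) = ∑ᶠ χ ∈ B, charDegree (χ : G → ℂ) ^ 2 := by
  classical
  rw [← piF_eR, rk_piF_eq M (eR_idem M hB)]
  have h1 := rk_eq_trace (e := iC M (eR M B)) (by rw [← map_mul, eR_idem M hB])
  rw [coeff_iC, cfun_eR M hB] at h1
  have h2 : blockCoeff B (1 : G) = (Nat.card G : ℂ)⁻¹ *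
      ((∑ᶠ χ ∈ B, charDegree (χ : G → ℂ) ^ 2 : ℕ) : ℂ) := by
    unfold blockCoeff
    congr 1
    rw [finsum_mem_eq_finite_toFinset_sum _ (Set.toFinite B),
      finsum_mem_eq_finite_toFinset_sum _ (Set.toFinite B), Nat.cast_sum]
    refine Finset.sum_congr rfl fun χ _ => ?_
    rw [irr_one_eq χ, Complex.conj_natCast]
    push_cast
    ring
  rw [h2, Nat.card_eq_fintype_card, ← mul_assoc, mul_inv_cancel₀ (by
    exact_mod_cast Fintype.card_ne_zero), one_mul] at h1
  exact_mod_cast h1

end nak

end Cfsg.Agent.Lib.Helper74.BlockDim
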