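import Mathlib
import Cfsg.Agent.Lib.Helper77.Dict2
import Cfsg.Agent.Lib.Helper78.HeightZero
import Cfsg.Agent.Lib.Helper78.DefectZero
import Cfsg.Agent.Lib.Helper74.BlockAlg
import Cfsg.Agent.Lib.Helper74.BlockDim

/-!
# The centre of a block algebra with two irreducible characters (helper74)

If `k(B) = 2` and `B` has positive defect then `dim_F Z(F[G] ē_B) = 2`.
-/

set_option autoImplicit false
set_option linter.unusedSectionVars false

namespace Cfsg.Agent.Lib.Helper74.BlockCenter

open Module MonoidAlgebra Cfsg Cfsg.Agent.Lib.Helper77 Cfsg.Agent.Lib.Helper78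
open Cfsg.Agent.Lib.Helper74.BlockAlg Cfsg.Agent.Lib.Helper74.BlockDim
open scoped ComplexConjugate

universe u

variable {G : Type u} [Group G] [Fintype G] (M : Ideal AlgInt) [hP : M.IsPrime]

/-- `∑ χ(x⁻¹) x` in `R[G]` -/
noncomputable def yR (χ : IrrCharacter G) : MonoidAlgebra (Rloc M) G :=
  liftR M (fun x => conj ((χ : G → ℂ) x))

theorem cfun_yR (χ : IrrCharacter G) : cfun M (yR M χ) = fun x => conj ((χ : G → ℂ) x) :=
  cfun_liftR M fun g => by
    rw [← irr_inv]
    exact memLocalRing_irr hP χ g⁻¹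

theorem conj_isClassFunction (χ : IrrCharacter G) :
    IsClassFunction G (fun x => conj ((χ : G → ℂ) x)) := fun g h => by
  show conj ((χ : G → ℂ) (h * g * h⁻¹)) = conj ((χ : G → ℂ) g)
  rw [irr_isClassFunction χ g h]

theorem fixedBy_yR (χ : IrrCharacter G) : FixedBy ⊤ (yR M χ) :=
  fixedBy_liftR M (conj_isClassFunction χ)

open Classical in
theorem omega_conj (ψ χ : IrrCharacter G) :
    omega (ψ : G → ℂ) (fun x => conj ((χ : G → ℂ) x))
      = if ψ = χ then (Fintype.card G : ℂ) / (χ : G → ℂ) 1 else 0 := by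
  have h1 := omega_irr_idem ψ χ
  have h2 : (fun g => (Fintype.card G : ℂ)⁻¹ * ((χ : G → ℂ) 1 * conj ((χ : G → ℂ) g)))
      = ((Fintype.card G : ℂ)⁻¹ * (χ : G → ℂ) 1) • (fun x => conj ((χ : G → ℂ) x)) := by
    ext g
    simp only [Pi.smul_apply, smul_eq_mul]
    ring
  rw [h2, omega_smul] at h1
  have hG : (Fintype.card G : ℂ) ≠ 0 := by exact_mod_cast Fintype.card_ne_zero
  have hχ := irr_one_ne_zero χ
  split_ifs at h1 ⊢ with h
  · field_simp at h1 ⊢
    linear_combination h1
  · rcases mul_eq_zero.1 h1 with h3 | h3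
    · exfalso
      rcases mul_eq_zero.1 h3 with h4 | h4
      · exact hG (inv_eq_zero.1 h4)
      · exact hχ h4
    · exact h3

theorem cfun_smul (c : Rloc M) (a : MonoidAlgebra (Rloc M) G) :
    cfun M (c • a) = (c : ℂ) • cfun M a := by
  ext g
  simp only [cfun, coeff_smul, Finsupp.smul_apply, Pi.smul_apply, smul_eq_mul, Subring.coe_mul]

theorem fixedBy_of_commute {k : Type*} [CommRing k] {w : MonoidAlgebra k G}
    (h : ∀ r, w * r = r * w) : FixedBy ⊤ w := fun u _ =>
  (cj_eq_iff_commute u w).2 (h _).symm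

/-- decomposition of the central elements of a block with two characters -/
theorem exists_decomp {p : ℕ} (hM : IsPModular p M) {B : Set (IrrCharacter G)}
    (hB : IsPBlock M B) {χ χ' : IrrCharacter G} (hχ : χ ∈ B) (hχ' : χ' ∈ B) (hne : χ' ≠ χ)
    (hall : ∀ ψ ∈ B, ψ = χ ∨ ψ = χ') {y₀ : G} (hy₀ : ¬ MemLocalIdeal M ((χ : G → ℂ) y₀))
    {z : MonoidAlgebra (Rloc M) G} (hz : FixedBy ⊤ z) (hze : z * eR M B = z) :
    ∃ c u : Rloc M, z = c • eR M B + u • yR M χ := by
  classical
  set c0 := omega (χ' : G → ℂ) (cfun M z) with hc0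
  have hc0m : MemLocalRing M c0 := memLocalRing_omega_cfun M χ' hz
  have hG : (Fintype.card G : ℂ) ≠ 0 := by exact_mod_cast Fintype.card_ne_zero
  have hχ1 := irr_one_ne_zero χ
  set u1 := (omega (χ : G → ℂ) (cfun M z) - c0) * (χ : G → ℂ) 1 / (Fintype.card G : ℂ) with hu1
  have hfun : cfun M z = c0 • blockCoeff B + u1 • (fun x => conj ((χ : G → ℂ) x)) := by
    apply eq_of_omega_eq (cfun_isClassFunction M hz)
    · intro g h
      simp only [Pi.add_apply, Pi.smul_apply, smul_eq_mul]
      rw [blockCoeff_isClassFunction B g h, irr_isClassFunction χ g h]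
    · intro ψ
      rw [omega_add, omega_smul, omega_smul, omega_blockCoeff, omega_conj]
      by_cases hψ : ψ ∈ B
      · rw [if_pos hψ]
        rcases hall ψ hψ with rfl | rfl
        · rw [if_pos rfl, hu1]
          field_simp
          ring
        · rw [if_neg hne]
          simp [hc0]
      · rw [if_neg hψ, if_neg (fun h : ψ = χ => hψ (h ▸ hχ))]
        have : omega (ψ : G → ℂ) (cfun M z) = 0 := by
          rw [← hze, omega_cfun_mul M ψ _ (fixedBy_eR M B), omega_eR M hB, if_neg hψ, mul_zero]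
        rw [this]; simp
  have hval := congrFun hfun y₀⁻¹
  simp only [Pi.add_apply, Pi.smul_apply, smul_eq_mul] at hval
  rw [irr_inv, Complex.conj_conj] at hval
  have hy0ne : (χ : G → ℂ) y₀ ≠ 0 := ne_zero_of_not_memLocalIdeal hP hy₀
  have hu1eq : u1 = (cfun M z y₀⁻¹ - c0 * blockCoeff B y₀⁻¹) * ((χ : G → ℂ) y₀)⁻¹ := by
    rw [hval]
    field_simp
    ring
  have hu1m : MemLocalRing M u1 := by
    rw [hu1eq]
    exact MemLocalRing.mul hP (MemLocalRing.sub hP (cfun_memLocalRing M z _)
      (MemLocalRing.mul hP hc0m (memLocalRing_blockCoeff hP hB _)))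
      (MemLocalRing.inv hP (memLocalRing_irr hP χ y₀) hy₀)
  refine ⟨⟨c0, hc0m⟩, ⟨u1, hu1m⟩, ?_⟩
  apply cfun_injective M
  rw [cfun_add, cfun_smul, cfun_smul, cfun_eR M hB, cfun_yR, hfun]

/-- **the centre of a block with two characters has dimension two** -/
theorem finrank_zE_eq_two {p : ℕ} (hM : IsPModular p M) {B : Set (IrrCharacter G)}
    (hB : IsPBlock M B) (hcard : Nat.card B = 2) (hd : 0 < blockDefect p B) :
    finrank (ResF M) (zE (ebar M B)) = 2 := by
  classical
  obtain ⟨χ, hχ, h0⟩ := exists_height_zero (p := p) (IsPBlock.nonempty hP hB)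
  obtain ⟨χ', hχ', hne, hall⟩ : ∃ χ' ∈ B, χ' ≠ χ ∧ ∀ ψ ∈ B, ψ = χ ∨ ψ = χ' := by
    have h1 : (Finset.univ.filter (· ∈ B)).card = 2 := by
      rw [← hcard, Nat.card_eq_fintype_card, Fintype.card_subtype]
    obtain ⟨a, b, hab, hs⟩ := Finset.card_eq_two.1 h1
    have hmem : ∀ ψ, ψ ∈ B ↔ ψ = a ∨ ψ = b := by
      intro ψ
      have : ψ ∈ Finset.univ.filter (· ∈ B) ↔ ψ ∈ ({a, b} : Finset _) := by rw [hs]
      simpa using this
    rcases (hmem χ).1 hχ with rfl | rfl
    · exact ⟨b, (hmem b).2 (Or.inr rfl), hab.symm, fun ψ hψ => (hmem ψ).1 hψ⟩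
    · exact ⟨a, (hmem a).2 (Or.inl rfl), hab, fun ψ hψ => ((hmem ψ).1 hψ).symm⟩
  obtain ⟨y₀, hy₀⟩ := exists_isDefectClass hP hB
  have hunit : ¬ MemLocalIdeal M ((χ : G → ℂ) y₀) := by
    have := not_memLocalIdeal_height_zero hM hB hy₀ hχ h0 (x := 1) (Commute.one_left _) (k := 0)
      (by simp)
    rwa [one_mul] at this
  have hideal : MemLocalIdeal M ((Fintype.card G : ℂ) / (χ : G → ℂ) 1) := by
    rw [irr_one_eq, ← Nat.card_eq_fintype_card]
    apply memLocalIdeal_natCast_div hM (irr_charDegree_pos χ).ne'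
    rw [blockDefect_eq] at hd
    rw [(blockHeight_eq_zero_iff hχ).1 h0]
    omega
  set E := ebar M B with hE
  set Y := piF M (yR M χ) with hY
  have hYe : yR M χ * eR M B = yR M χ := by
    apply eq_of_omega M ((fixedBy_yR M χ).mul (fixedBy_eR M B)) (fixedBy_yR M χ)
    intro ψ
    rw [omega_cfun_mul M ψ _ (fixedBy_eR M B), omega_eR M hB, cfun_yR, omega_conj]
    by_cases h : ψ = χ
    · subst h
      rw [if_pos rfl, if_pos hχ, mul_one]
    · rw [if_neg h, zero_mul]
  have hEz : E ∈ zE E := ⟨fun r => (fixedBy_ebar M B).commute_top r, ebar_idem M hB⟩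
  have hYz : Y ∈ zE E := by
    refine ⟨fun r => ((fixedBy_yR M χ).piF M).commute_top r, ?_⟩
    rw [hY, hE, ← piF_eR, ← map_mul, hYe]
  have hYne : Y ≠ 0 := by
    intro h
    rw [hY, piF_eq_zero_iff] at h
    have := h y₀⁻¹
    rw [cfun_yR] at this
    simp only at this
    rw [irr_inv, Complex.conj_conj] at this
    exact hunit this
  obtain ⟨n, hYn⟩ : ∃ n : ℕ, Y ^ n = 0 := by
    apply piF_nilpotent M (fixedBy_yR M χ)
    intro ψ
    rw [cfun_yR, omega_conj]
    split_ifs
    · exact hideal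
    · exact memLocalIdeal_zero hP
  have hspan : zE E = Submodule.span (ResF M) (Set.range ![E, Y]) := by
    apply le_antisymm
    · intro w hw
      obtain ⟨z1, hz1, hz1w⟩ := piF_surjective_central M (fixedBy_of_commute hw.1)
      obtain ⟨c, u, hcu⟩ := exists_decomp M hM hB hχ hχ' hne hall hunit
        (z := z1 * eR M B) (hz1.mul (fixedBy_eR M B)) (by rw [mul_assoc, eR_idem M hB])
      have h1 : w = resMap M c • E + resMap M u • Y := by
        have h2 := congrArg (piF M) hcu
        rw [map_mul, hz1w, piF_eR, hw.2, map_add, piF_smul, piF_smul, piF_eR] at h2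
        exact h2
      rw [h1]
      exact Submodule.add_mem _ (Submodule.smul_mem _ _ (Submodule.subset_span ⟨0, rfl⟩))
        (Submodule.smul_mem _ _ (Submodule.subset_span ⟨1, rfl⟩))
    · rw [Submodule.span_le]
      rintro _ ⟨i, rfl⟩
      fin_cases i
      · exact hEz
      · exact hYz
  have hli : LinearIndependent (ResF M) ![E, Y] := by
    rw [LinearIndependent.pair_iff]
    intro s t hst
    have hs : s = 0 := by
      by_contra hs
      have h1 : E = (-(s⁻¹ * t)) • Y := by
        have : s • E = -(t • Y) := eq_neg_of_add_eq_zero_left hst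
        calc E = s⁻¹ • (s • E) := by rw [smul_smul, inv_mul_cancel₀ hs, one_smul]
          _ = (-(s⁻¹ * t)) • Y := by rw [this, smul_neg, smul_smul, neg_smul]
      have h2 : E ^ n = 0 := by
        rw [h1, smul_pow, hYn, smul_zero]
      have h3 : ∀ m : ℕ, E ^ (m + 1) = E := by
        intro m
        induction m with
        | zero => simp
        | succ m ih => rw [pow_succ, ih, hE, ebar_idem M hB]
      rcases n with _ | n
      · rw [pow_zero] at hYn
        have : Y = 0 := by rw [← mul_one Y, hYn, mul_zero]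
        exact hYne this
      · rw [h3] at h2
        exact ebar_ne_zero M hB h2
    refine ⟨hs, ?_⟩
    rw [hs, zero_smul, zero_add] at hst
    exact (smul_eq_zero.1 hst).resolve_right hYne
  rw [hspan, finrank_span_eq_card hli, Fintype.card_fin]

end Cfsg.Agent.Lib.Helper74.BlockCenter
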