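import Mathlib
import Cfsg.Agent.Lib.Helper74.BlockOne
import Cfsg.Agent.Lib.Helper74.BlockDim
import Cfsg.Agent.Lib.Helper74.BlockCenterG
import Cfsg.Agent.Lib.Helper74.SymAlgR5
import Cfsg.Agent.Lib.Helper59.SymAlgR1
import Cfsg.Agent.Lib.Helper78.SymAlgR7
import Cfsg.Agent.Lib.Helper96.SymAlgR6
import Cfsg.Agent.Lib.Helper65.ResFAlgClosed

/-!
# Blocks with `l(B) = 1` and `k(B) ≤ 4`: dimensions (helper74)
-/

set_option autoImplicit false
set_option linter.unusedSectionVars false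

namespace Cfsg.Agent.Lib.Helper74.BlockOne

open Cfsg Module MonoidAlgebra Cfsg.Agent.Lib.Helper77 Cfsg.Agent.Lib.Helper78
  Cfsg.Agent.Lib.Helper74.SymAlg Cfsg.Agent.Lib.Helper74.BlockAlg
  Cfsg.Agent.Lib.Helper74.BlockDim Cfsg.Agent.Lib.Helper74.BlockCenterG

universe u

variable {G : Type u} [Group G] [Fintype G] (M : Ideal AlgInt) [hP : M.IsPrime] {p : ℕ}

theorem dims [Fact p.Prime] (hM : IsPModular p M) {B : Set (IrrCharacter G)} (hB : IsPBlock M B)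
    (hl : blockRank p B = 1) (hk : Nat.card B ≤ 4) :
    ∃ n : ℕ, 0 < n ∧ ∑ᶠ χ ∈ B, charDegree (χ : G → ℂ) ^ 2 = Nat.card B * n ^ 2 ∧
      p ^ (Nat.card G).factorization p ∣ Nat.card B * n := by
  have := Cfsg.Agent.Lib.Helper65.isAlgClosed_resF M hM
  have := resF_charP hM
  have he := ebar_idem M hB
  have hc : ∀ x, ebar M B * x = x * ebar M B := (fixedBy_ebar M B).commute_top
  have := annI_isTwoSided hc
  have := nontrivial_quot M hB
  have hsym := isSymForm_lamQ hc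
  have hZ := (finrank_center he hc).trans (finrank_zE_ebar M hB)
  obtain ⟨n, φ, hn, hφ, hJ⟩ := Cfsg.Agent.Lib.Helper59.SymAlgR1.R1
    (r1_hyp M hM hB hl (fun h hcl => Cfsg.Agent.Lib.Helper78.SymAlgR7.R7 M hM h hcl))
  obtain ⟨h1, ε, hε, h2⟩ := R5 hsym hn φ hφ hJ (hZ.trans_le hk)
  obtain ⟨ε', hε', h3⟩ := idem_transfer he hc ε hε
  refine ⟨n, hn, ?_, ?_⟩
  · rw [← rk_ebar M hB, ← hZ, ← h1, finrank_quot]
    rfl
  · obtain ⟨P⟩ : Nonempty (Sylow p G) := inferInstance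
    have h4 := Cfsg.Agent.Lib.Helper96.SymAlgR6.R6 (P : Subgroup G) P.isPGroup' ε' hε'
    rw [h3, h2, hZ, P.card_eq_multiplicity] at h4
    exact h4

end Cfsg.Agent.Lib.Helper74.BlockOne
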