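import Mathlib
import Cfsg.Agent.Lib.Helper74.BlockCenter
import Cfsg.Agent.Lib.Helper91.SymAlgP1
import Cfsg.Agent.Lib.Helper91.SymAlgP2
import Cfsg.Agent.Lib.Helper91.SymAlgP4
import Cfsg.Agent.Lib.Helper96.SymAlgP3
import Cfsg.Agent.Lib.Helper65.ResFAlgClosed

/-!
# Blocks with two irreducible characters: the dimension is `2 n²` (helper74)
-/

set_option autoImplicit false
set_option linter.unusedSectionVars false

namespace Cfsg.Agent.Lib.Helper74.BlockTwo

open Module MonoidAlgebra Cfsg Cfsg.Agent.Lib.Helper77 Cfsg.Agent.Lib.Helper78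
open Cfsg.Agent.Lib.Helper74.BlockAlg Cfsg.Agent.Lib.Helper74.BlockDim
open Cfsg.Agent.Lib.Helper74.BlockCenter Cfsg.Agent.Lib.Helper74.SymAlg

universe u

/-- symmetric indecomposable algebra with two-dimensional centre -/
theorem symAlg_main {F A : Type*} [Field F] [Ring A] [Algebra F A] [FiniteDimensional F A]
    [IsAlgClosed F] {lam : A →ₗ[F] F} (h : IsSymForm lam)
    (hZ : finrank F (Subalgebra.center F A) = 2)
    (hprim : ∀ c ∈ Subalgebra.center F A, c * c = c → c = 0 ∨ c = 1) :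
    ∃ n : ℕ, finrank F A = 2 * n ^ 2 := by
  obtain ⟨n, φ, hn, hφ, hJ, hne⟩ := Cfsg.Agent.Lib.Helper91.SymAlgP2.P2 h hZ hprim
  exact ⟨n, Cfsg.Agent.Lib.Helper91.SymAlgP4.P4 h φ hφ hJ hne
    (Cfsg.Agent.Lib.Helper96.SymAlgP3.P3 h
      ((Cfsg.Agent.Lib.Helper91.SymAlgP1.P1 h).trans hZ.le) hn φ hφ hJ)⟩

variable {G : Type u} [Group G] [Fintype G] (M : Ideal AlgInt) [hP : M.IsPrime]

theorem sum_sq_eq_two_mul_sq {p : ℕ} (hM : IsPModular p M) {B : Set (IrrCharacter G)}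
    (hB : IsPBlock M B) (hcard : Nat.card B = 2) (hd : 0 < blockDefect p B) :
    ∃ n : ℕ, ∑ᶠ χ ∈ B, charDegree (χ : G → ℂ) ^ 2 = 2 * n ^ 2 := by
  haveI := Cfsg.Agent.Lib.Helper65.isAlgClosed_resF M hM
  have he := ebar_idem M hB
  have hc : ∀ x, ebar M B * x = x * ebar M B := (fixedBy_ebar M B).commute_top
  haveI := annI_isTwoSided hc
  have hsym := isSymForm_lamQ hc
  have hZ := (finrank_center he hc).trans (finrank_zE_eq_two M hM hB hcard hd)
  have hprim := central_idem he hc (fun ε hε hi =>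
    (isPrimIdem_ebar M hB).prim ε (mem_zsub_top.2 (fixedBy_of_commute hε)) hi)
  obtain ⟨n, hn⟩ := symAlg_main hsym hZ hprim
  refine ⟨n, ?_⟩
  rw [← rk_ebar M hB, ← hn, finrank_quot]
  rfl

end Cfsg.Agent.Lib.Helper74.BlockTwo
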