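import Mathlib
import Cfsg.Agent.Lib.Helper78.GaloisPkg
import Cfsg.Agent.Lib.Helper78.SubsecUnit

/-!
# Norms in `ℤ[ζ_{p^k}]` and the unique prime over `p` (helper74)

A Galois package which also records that norms are rational integers and that the norm of
`ω - 1` is `Φ_n(1)`; then: an element `a` of `ℤ[ζ_{p^k}]` with `a / p^h` locally integral has
norm of absolute value at least `p^{h φ(n)}`.
-/

set_option autoImplicit false

namespace Cfsg.Agent.Lib.Helper74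

open Cfsg Cfsg.Agent.Lib.Helper78
open scoped ComplexConjugate

theorem galois_pkg2_aux (n : ℕ) [NeZero n] (hn2 : 2 < n) (K : Type) [Field K] [NumberField K]
    [IsCyclotomicExtension {n} ℚ K] :
    ∃ (τ : (ZMod n)ˣ → (ℂ ≃+* ℂ)) (ω : ℂ), IsPrimitiveRoot ω n ∧
      (∀ j w, w ^ n = 1 → τ j w = w ^ (j : ZMod n).val) ∧
      (∀ α ∈ rootRing n, ∃ z : ℤ, ∏ j, τ j α = (z : ℂ)) ∧
      ∏ j, τ j (ω - 1) = (((Polynomial.cyclotomic n ℤ).eval 1 : ℤ) : ℂ) := by
  have hn : 0 < n := Nat.pos_of_ne_zero (NeZero.ne n)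
  have hex : ∀ j : (ZMod n)ˣ, ∃ τ : ℂ ≃+* ℂ, ∀ w : ℂ, w ^ n = 1 → τ w = w ^ (j : ZMod n).val :=
    fun j => Helper76.exists_ringAut_complex n hn _ (ZMod.val_coe_unit_coprime j)
  choose τ hτ using hex
  have hgal : IsGalois ℚ K := IsCyclotomicExtension.isGalois {n} ℚ K
  let ζK : K := IsCyclotomicExtension.zeta n ℚ K
  have hζK : IsPrimitiveRoot ζK n := IsCyclotomicExtension.zeta_spec n ℚ K
  have hne : Nonempty (K →ₐ[ℚ] ℂ) := ⟨IsAlgClosed.lift⟩
  obtain ⟨σ₀⟩ := hne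
  have hζ : IsPrimitiveRoot (σ₀ ζK) n := hζK.map_of_injective σ₀.toRingHom.injective
  let E := IsCyclotomicExtension.Rat.galEquivZMod n K
  have hroot : ∀ (a : ℕ) (g : Gal(K/ℚ)), σ₀ (g (ζK ^ a)) = τ (E g) (σ₀ ζK ^ a) := by
    intro a g
    have h1 : (ζK ^ a) ^ n = 1 := by
      rw [← pow_mul, mul_comm, pow_mul, hζK.pow_eq_one, one_pow]
    have h2 : (σ₀ ζK ^ a) ^ n = 1 := by
      rw [← pow_mul, mul_comm, pow_mul, hζ.pow_eq_one, one_pow]
    rw [IsCyclotomicExtension.Rat.galEquivZMod_apply_of_pow_eq n K g h1, hτ _ _ h2, map_pow,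
      map_pow]
  have key : ∀ α ∈ rootRing n, ∃ x : K, IsIntegral ℤ x ∧
      ∀ g : Gal(K/ℚ), σ₀ (g x) = τ (E g) α := by
    intro α hα
    induction hα using Subring.closure_induction with
    | mem w hw =>
      obtain ⟨a, _, ha⟩ := hζ.eq_pow_of_pow_eq_one hw
      refine ⟨ζK ^ a, (hζK.isIntegral hn).pow _, fun g => ?_⟩
      rw [hroot, ha]
    | zero => exact ⟨0, isIntegral_zero, fun g => by simp⟩
    | one => exact ⟨1, isIntegral_one, fun g => by simp⟩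
    | add a b _ _ iha ihb =>
      obtain ⟨x, hx, hx2⟩ := iha
      obtain ⟨y, hy, hy2⟩ := ihb
      exact ⟨x + y, hx.add hy, fun g => by rw [map_add, map_add, map_add, hx2, hy2]⟩
    | neg a _ iha =>
      obtain ⟨x, hx, hx2⟩ := iha
      exact ⟨-x, hx.neg, fun g => by rw [map_neg, map_neg, map_neg, hx2]⟩
    | mul a b _ _ iha ihb =>
      obtain ⟨x, hx, hx2⟩ := iha
      obtain ⟨y, hy, hy2⟩ := ihb
      exact ⟨x * y, hx.mul hy, fun g => by rw [map_mul, map_mul, map_mul, hx2, hy2]⟩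
  have hprod : ∀ (α : ℂ) (x : K), (∀ g : Gal(K/ℚ), σ₀ (g x) = τ (E g) α) →
      ∏ j : (ZMod n)ˣ, τ j α = σ₀ (algebraMap ℚ K (Algebra.norm ℚ x)) := by
    intro α x hx
    have h1 := Algebra.norm_eq_prod_automorphisms ℚ x
    have h2 := congrArg σ₀ h1
    rw [map_prod] at h2
    rw [← Equiv.prod_comp E.toEquiv]
    have h3 : ∏ g : Gal(K/ℚ), τ (E.toEquiv g) α = ∏ g : Gal(K/ℚ), σ₀ (g x) :=
      Finset.prod_congr rfl fun g _ => (hx g).symm
    rw [h3, ← h2]
  refine ⟨τ, σ₀ ζK, hζ, hτ, ?_, ?_⟩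
  · intro α hα
    obtain ⟨x, hint, hx⟩ := key α hα
    have hnorm : IsIntegral ℤ (Algebra.norm ℚ x) := Algebra.isIntegral_norm ℚ hint
    obtain ⟨z, hz⟩ := IsIntegrallyClosed.isIntegral_iff.mp hnorm
    refine ⟨z, ?_⟩
    rw [hprod α x hx, ← hz]
    simp
  · have hx : ∀ g : Gal(K/ℚ), σ₀ (g (ζK - 1)) = τ (E g) (σ₀ ζK - 1) := by
      intro g
      have := hroot 1 g
      rw [pow_one, pow_one] at this
      rw [map_sub, map_sub, map_sub, this, map_one, map_one, map_one]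
    rw [hprod _ _ hx, hζK.sub_one_norm_eq_eval_cyclotomic hn2
      (Polynomial.cyclotomic.irreducible_rat hn)]
    simp

theorem galois_pkg2 (n : ℕ) [NeZero n] (hn2 : 2 < n) :
    ∃ (τ : (ZMod n)ˣ → (ℂ ≃+* ℂ)) (ω : ℂ), IsPrimitiveRoot ω n ∧
      (∀ j w, w ^ n = 1 → τ j w = w ^ (j : ZMod n).val) ∧
      (∀ α ∈ rootRing n, ∃ z : ℤ, ∏ j, τ j α = (z : ℂ)) ∧
      ∏ j, τ j (ω - 1) = (((Polynomial.cyclotomic n ℤ).eval 1 : ℤ) : ℂ) := by
  have h1 : @IsCyclotomicExtension {n} ℚ (CyclotomicField n ℚ) _ _ (CyclotomicField.algebra n ℚ) :=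
    CyclotomicField.isCyclotomicExtension n ℚ
  have h2 : (CyclotomicField.algebra n ℚ) = DivisionRing.toRatAlgebra := Subsingleton.elim _ _
  rw [h2] at h1
  have h3 : NumberField (CyclotomicField n ℚ) := IsCyclotomicExtension.numberField {n} ℚ _
  exact galois_pkg2_aux n hn2 (CyclotomicField n ℚ)

section NT

variable {M : Ideal AlgInt} {p : ℕ}

theorem memLocalRing_of_rootRing (hM : M.IsPrime) {n : ℕ} (hn : 0 < n) {w : ℂ}
    (hw : w ∈ rootRing n) : MemLocalRing M w := by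
  have h1 : rootRing n ≤ localRing M hM := by
    unfold rootRing
    rw [Subring.closure_le]
    intro u hu
    have hu' : u ^ n = 1 := hu
    exact memLocalRing_of_isIntegral hM (IsIntegral.of_pow hn (by rw [hu']; exact isIntegral_one))
  exact h1 hw

theorem pow_mem_rootRing {n : ℕ} {ω : ℂ} (hω : ω ^ n = 1) (i : ℕ) : ω ^ i ∈ rootRing n :=
  Subring.pow_mem _ (mem_rootRing_of_pow hω) i

/-- every element of `ℤ[ω]` is congruent to a rational integer modulo `ω - 1` -/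
theorem rootRing_mod {n : ℕ} {ω : ℂ} (hω : IsPrimitiveRoot ω n) [NeZero n] {a : ℂ}
    (ha : a ∈ rootRing n) :
    ∃ (z : ℤ) (u : ℂ), u ∈ rootRing n ∧ a = (z : ℂ) + (ω - 1) * u := by
  induction ha using Subring.closure_induction with
  | mem w hw =>
    obtain ⟨i, _, hi⟩ := hω.eq_pow_of_pow_eq_one hw
    refine ⟨1, ∑ l ∈ Finset.range i, ω ^ l,
      Subring.sum_mem _ fun l _ => pow_mem_rootRing hω.pow_eq_one l, ?_⟩
    rw [mul_geom_sum, hi]
    push_cast
    ring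
  | zero => exact ⟨0, 0, Subring.zero_mem _, by simp⟩
  | one => exact ⟨1, 0, Subring.zero_mem _, by simp⟩
  | add a b _ _ iha ihb =>
    obtain ⟨z, u, hu, rfl⟩ := iha
    obtain ⟨z', u', hu', rfl⟩ := ihb
    exact ⟨z + z', u + u', Subring.add_mem _ hu hu', by push_cast; ring⟩
  | neg a _ iha =>
    obtain ⟨z, u, hu, rfl⟩ := iha
    exact ⟨-z, -u, Subring.neg_mem _ hu, by push_cast; ring⟩
  | mul a b _ _ iha ihb =>
    obtain ⟨z, u, hu, rfl⟩ := iha
    obtain ⟨z', u', hu', rfl⟩ := ihb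
    have hπ : ω - 1 ∈ rootRing n :=
      Subring.sub_mem _ (mem_rootRing_of_pow hω.pow_eq_one) (Subring.one_mem _)
    refine ⟨z * z', (z : ℂ) * u' + (z' : ℂ) * u + (ω - 1) * u * u', ?_, by push_cast; ring⟩
    exact Subring.add_mem _ (Subring.add_mem _ (Subring.mul_mem _ (intCast_mem _ _) hu')
      (Subring.mul_mem _ (intCast_mem _ _) hu)) (Subring.mul_mem _ (Subring.mul_mem _ hπ hu) hu')

/-- **one prime over `p`**: if `a ∈ ℤ[ω]` and `a / p^h` is locally integral then the norm of `a`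
has absolute value at least `p^{h φ(n)}`. -/
theorem prod_ge_of_memLocalRing (hM : IsPModular p M) {n : ℕ} [NeZero n]
    (τ : (ZMod n)ˣ → (ℂ ≃+* ℂ)) (ω : ℂ) (hω : IsPrimitiveRoot ω n) (hω1 : ω ≠ 1)
    (hπM : MemLocalIdeal M (ω - 1))
    (hτ1 : ∀ j w, w ^ n = 1 → τ j w = w ^ (j : ZMod n).val)
    (hτ3 : ∀ α ∈ rootRing n, ∃ z : ℤ, ∏ j, τ j α = (z : ℂ))
    (hτ4 : ∏ j, τ j (ω - 1) = (p : ℂ))
    {a : ℂ} (ha : a ∈ rootRing n) (ha0 : a ≠ 0) (h : ℕ)
    (hloc : MemLocalRing M (a / (p : ℂ) ^ h)) :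
    ((p : ℝ) ^ h) ^ (Fintype.card (ZMod n)ˣ) ≤ ‖∏ j, τ j a‖ := by
  have hMp : M.IsPrime := hM.2.1.isPrime
  have hn : 0 < n := Nat.pos_of_ne_zero (NeZero.ne n)
  have hp0 : (p : ℂ) ≠ 0 := by exact_mod_cast hM.1.ne_zero
  have hπ0 : ω - 1 ≠ 0 := sub_ne_zero.2 hω1
  have hπR : ω - 1 ∈ rootRing n :=
    Subring.sub_mem _ (mem_rootRing_of_pow hω.pow_eq_one) (Subring.one_mem _)
  obtain ⟨φ, hφdef⟩ : ∃ φ : ℕ, φ = Fintype.card (ZMod n)ˣ := ⟨_, rfl⟩
  have hφ : 0 < φ := by rw [hφdef]; exact Fintype.card_pos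
  have hg : ∀ j : (ZMod n)ˣ, ∃ g ∈ rootRing n, τ j (ω - 1) = (ω - 1) * g := by
    intro j
    refine ⟨∑ l ∈ Finset.range (j : ZMod n).val, ω ^ l,
      Subring.sum_mem _ fun l _ => pow_mem_rootRing hω.pow_eq_one l, ?_⟩
    rw [mul_geom_sum, map_sub, map_one, hτ1 j ω hω.pow_eq_one]
  choose g hgR hg using hg
  obtain ⟨ε, hεdef⟩ : ∃ ε : ℂ, ε = ∏ j, g j := ⟨_, rfl⟩
  have hεR : ε ∈ rootRing n := by rw [hεdef]; exact Subring.prod_mem _ fun j _ => hgR j
  have hpε : (p : ℂ) = (ω - 1) ^ φ * ε := by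
    rw [← hτ4, Finset.prod_congr rfl fun j _ => hg j, Finset.prod_mul_distrib, Finset.prod_const,
      Finset.card_univ, hφdef, hεdef]
  have claim : ∀ i : ℕ, i ≤ h * φ → ∃ u ∈ rootRing n, a = (ω - 1) ^ i * u := by
    intro i
    induction i with
    | zero => intro _; exact ⟨a, ha, by simp⟩
    | succ i ih =>
      intro hi
      obtain ⟨u, hu, hau⟩ := ih (by omega)
      obtain ⟨z, u', hu', huz⟩ := rootRing_mod hω hu
      -- `u` lies in the local ideal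
      have hul : MemLocalIdeal M u := by
        have h1 : u = a / (p : ℂ) ^ h * ((ω - 1) ^ (h * φ - i - 1) * ε ^ h) * (ω - 1) := by
          have h2 : (p : ℂ) ^ h = (ω - 1) ^ i * ((ω - 1) ^ (h * φ - i - 1) * (ω - 1)) * ε ^ h := by
            rw [hpε, mul_pow, ← pow_mul, ← pow_succ, ← pow_add]
            congr 2
            rw [mul_comm φ h]
            omega
          have h3 : (p : ℂ) ^ h ≠ 0 := pow_ne_zero _ hp0
          have h4 : (ω - 1) ^ i ≠ 0 := pow_ne_zero _ hπ0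
          rw [div_mul_eq_mul_div, div_mul_eq_mul_div, eq_div_iff h3]
          rw [hau, h2]
          ring
        rw [h1]
        refine MemLocalIdeal.mul_left hMp (MemLocalRing.mul hMp hloc ?_) hπM
        exact memLocalRing_of_rootRing hMp hn
          (Subring.mul_mem _ (Subring.pow_mem _ hπR _) (Subring.pow_mem _ hεR _))
      have hzl : MemLocalIdeal M (z : ℂ) := by
        have : (z : ℂ) = u - (ω - 1) * u' := by rw [huz]; ring
        rw [this]
        exact MemLocalIdeal.sub hMp hul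
          (MemLocalIdeal.mul_right hMp hπM (memLocalRing_of_rootRing hMp hn hu'))
      obtain ⟨z', rfl⟩ := (memLocalIdeal_intCast_iff hM z).1 hzl
      refine ⟨(ω - 1) ^ (φ - 1) * ε * (z' : ℂ) + u', ?_, ?_⟩
      · exact Subring.add_mem _ (Subring.mul_mem _ (Subring.mul_mem _ (Subring.pow_mem _ hπR _) hεR)
          (intCast_mem _ _)) hu'
      · have h5 : (p : ℂ) = (ω - 1) * ((ω - 1) ^ (φ - 1) * ε) := by
          rw [← mul_assoc, ← pow_succ', hpε]
          congr 2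
          omega
        rw [hau, huz]
        push_cast
        rw [pow_succ]
        linear_combination ((ω - 1) ^ i * (z' : ℂ)) * h5
  obtain ⟨u, hu, hau⟩ := claim (h * φ) le_rfl
  have hu0 : u ≠ 0 := by
    rintro rfl
    exact ha0 (by rw [hau, mul_zero])
  obtain ⟨z, hz⟩ := hτ3 u hu
  have hz0 : z ≠ 0 := by
    rintro rfl
    rw [Int.cast_zero, Finset.prod_eq_zero_iff] at hz
    obtain ⟨j, -, hj⟩ := hz
    exact hu0 ((map_eq_zero_iff _ (τ j).injective).1 hj)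
  have hprod : ∏ j, τ j a = (p : ℂ) ^ (h * φ) * (z : ℂ) := by
    rw [hau]
    simp only [map_mul, map_pow]
    rw [Finset.prod_mul_distrib, Finset.prod_pow, hτ4, hz]
  rw [hprod, norm_mul, norm_pow, Complex.norm_natCast, Complex.norm_intCast, ← hφdef, ← pow_mul]
  have h1 : (1 : ℝ) ≤ |(z : ℝ)| := by
    have : (1 : ℤ) ≤ |z| := Int.one_le_abs hz0
    exact_mod_cast this
  have h2 : (0 : ℝ) ≤ (p : ℝ) ^ (h * φ) := by positivity
  nlinarith

/-- **The Galois package for heights.**  Automorphisms `τ_j` of `ℂ` acting on the `p^(K+2)`-th roots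
of unity by `j`-th powers, such that a totally nonnegative nonzero `a ∈ ℤ[ζ]` with `a / p^h` locally
integral has trace at least `φ(n) p^h`. -/
theorem galois_pkg3 (hM : IsPModular p M) (K : ℕ) [NeZero (p ^ (K + 2))] :
    ∃ τ : (ZMod (p ^ (K + 2)))ˣ → (ℂ ≃+* ℂ),
      (∀ j w, w ^ p ^ (K + 2) = 1 → τ j w = w ^ (j : ZMod (p ^ (K + 2))).val) ∧
      ∀ a ∈ rootRing (p ^ (K + 2)), a ≠ 0 → ∀ h : ℕ, MemLocalRing M (a / (p : ℂ) ^ h) →
        ∀ t : (ZMod (p ^ (K + 2)))ˣ → ℝ, (∀ j, (t j : ℂ) = τ j a) → (∀ j, 0 ≤ t j) →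
          (Fintype.card (ZMod (p ^ (K + 2)))ˣ : ℝ) * (p : ℝ) ^ h ≤ ∑ j, t j := by
  have hp : p.Prime := hM.1
  have : Fact p.Prime := ⟨hp⟩
  have hn2 : 2 < p ^ (K + 2) := by
    calc 2 < 2 ^ 2 := by norm_num
      _ ≤ p ^ 2 := Nat.pow_le_pow_left hp.two_le 2
      _ ≤ p ^ (K + 2) := Nat.pow_le_pow_right hp.pos (by omega)
  obtain ⟨τ, ω, hω, hτ1, hτ3, hτ4⟩ := galois_pkg2 (p ^ (K + 2)) hn2
  refine ⟨τ, hτ1, ?_⟩
  intro a ha ha0 h hloc t ht ht0
  have hω1 : ω ≠ 1 := by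
    rintro rfl
    have := hω.eq_orderOf
    rw [orderOf_one] at this
    omega
  have hτ4' : ∏ j, τ j (ω - 1) = (p : ℂ) := by
    rw [hτ4, show K + 2 = (K + 1) + 1 from rfl, Polynomial.eval_one_cyclotomic_prime_pow]
    simp
  have key := prod_ge_of_memLocalRing hM τ ω hω hω1
    (memLocalIdeal_root_sub_one hM hω.pow_eq_one) hτ1 hτ3 hτ4' ha ha0 h hloc
  have hpR : (0 : ℝ) < (p : ℝ) ^ h := by
    have : (0 : ℝ) < (p : ℝ) := by exact_mod_cast hp.pos
    positivity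
  have htpos : ∀ j, 0 < t j := by
    intro j
    refine lt_of_le_of_ne (ht0 j) fun h0 => ?_
    have h1 := ht j
    rw [← h0, Complex.ofReal_zero] at h1
    exact ha0 ((map_eq_zero_iff _ (τ j).injective).1 h1.symm)
  have hprod : ‖∏ j, τ j a‖ = ∏ j, t j := by
    rw [Finset.prod_congr rfl fun j _ => (ht j).symm, ← Complex.ofReal_prod,
      Complex.norm_real, Real.norm_eq_abs, abs_of_nonneg (Finset.prod_nonneg fun j _ => ht0 j)]
  have h2 := Helper76.card_le_sum_of_one_le_prod (fun j => t j / (p : ℝ) ^ h)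
    (fun j => div_pos (htpos j) hpR) (by
      rw [Finset.prod_div_distrib, Finset.prod_const, Finset.card_univ, le_div_iff₀ (by positivity),
        one_mul, ← hprod]
      exact key)
  rw [← Finset.sum_div, le_div_iff₀ hpR] at h2
  exact h2

end NT

end Cfsg.Agent.Lib.Helper74
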