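import Mathlib
import Cfsg.Agent.Lib.Helper74.HeightNT
import Cfsg.Agent.Lib.Helper77.Major
import Cfsg.Agent.S4511

/-!
# Heights and the number of major subsections (helper74)

For `χ ∈ B` of height `h` the number of conjugacy classes of major subsections of `B` is at most
`p^(d - h)`.
-/

set_option autoImplicit false

namespace Cfsg.Agent.Lib.Helper74

open Cfsg Cfsg.Agent.Lib.Helper4 Cfsg.Agent.Lib.Helper16 Cfsg.Agent.Lib.Helper97
  Cfsg.Agent.Lib.Helper78 Cfsg.Agent.Lib.Helper77b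
open scoped ComplexConjugate

variable {G : Type*} [Group G] [Fintype G] {M : Ideal AlgInt} {p : ℕ} [Fact p.Prime]

/-- the blocks of `C_G(x)` inducing `B` -/
noncomputable def indBlocks (M : Ideal AlgInt) (x : G) (B : Set (IrrCharacter G)) :
    Finset (Set (IrrCharacter (Cen x))) :=
  (Set.toFinite {β : Set (IrrCharacter (Cen x)) | IsInducedBlock M (Cen x) β B}).toFinset

omit [Fact p.Prime] in
theorem mem_indBlocks {x : G} {B : Set (IrrCharacter G)} {β : Set (IrrCharacter (Cen x))} :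
    β ∈ indBlocks M x B ↔ IsInducedBlock M (Cen x) β B := by
  simp [indBlocks]

omit [Fact p.Prime] in
theorem sum_blockPart_indBlocks (hMp : M.IsPrime) (x : G) (B : Set (IrrCharacter G))
    (Ψ : Cen x → ℂ) (s : Cen x) :
    ∑ β ∈ indBlocks M x B, blockPart β Ψ s = blockPart (indSet M x B) Ψ s := by
  rw [blockPart_def, Cfsg.Agent.S4511.finsum_indSet hMp,
    finsum_mem_eq_finite_toFinset_sum _ (Set.toFinite _)]
  exact Finset.sum_congr rfl fun β _ => blockPart_def β Ψ s

open Classical in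
/-- the norm of `χ` on the section of `x` is the sum of the norms of its `β`-parts -/
theorem sum_norm_section (hM : IsPModular p M) (x : G) (hx : ∃ k : ℕ, orderOf x = p ^ k)
    {B : Set (IrrCharacter G)} (hB : IsPBlock M B) {χ : IrrCharacter G} (hχ : χ ∈ B) :
    ∑ β ∈ indBlocks M x B, ∑ s : Cen x, Xr p x β χ s * conj (Xr p x β χ s)
      = ∑ s : Cen x, if ¬ p ∣ orderOf s then
          (χ : G → ℂ) (x * (s : G)) * conj ((χ : G → ℂ) (x * (s : G))) else 0 := by
  have hMp : M.IsPrime := hM.2.1.isPrime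
  have h1 : ∀ β ∈ indBlocks M x B, ∑ s : Cen x, Xr p x β χ s * conj (Xr p x β χ s)
      = ∑ s : Cen x, (if ¬ p ∣ orderOf s then tw x (χ : G → ℂ) s *
        conj (blockPart β (tw x (χ : G → ℂ)) s) else 0) := by
    intro β hβ
    rw [← sum_blockPart_regular hM (mem_indBlocks.1 hβ).1
      (tw_isClassFunction x (irr_isClassFunction χ))]
    refine Finset.sum_congr rfl fun s _ => ?_
    unfold Xr
    by_cases hs : p ∣ orderOf s
    · simp [hs]
    · simp only [if_pos hs]
  rw [Finset.sum_congr rfl h1, Finset.sum_comm]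
  refine Finset.sum_congr rfl fun s _ => ?_
  by_cases hs : p ∣ orderOf s
  · simp [hs]
  · simp only [if_pos hs]
    rw [← Finset.mul_sum, ← map_sum, sum_blockPart_indBlocks hMp,
      ← apply_eq_blockPart_indSet hM x hx hB hχ s hs]

open Classical in
/-- **the contributions of all subsections to `⟨χ, χ⟩` add up to one** -/
theorem sum_subAlpha_eq_one (hM : IsPModular p M) (X : Finset G)
    (hX : ∀ x ∈ X, ∃ k : ℕ, orderOf x = p ^ k)
    (hXrep : ∀ g : G, (∃ k : ℕ, orderOf g = p ^ k) → ∃! x, x ∈ X ∧ IsConj g x)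
    {B : Set (IrrCharacter G)} (hB : IsPBlock M B) {χ : IrrCharacter G} (hχ : χ ∈ B) :
    ∑ x ∈ X, ∑ β ∈ indBlocks M x B, subAlpha p x β χ χ / ((p ^ blockDefect p β : ℕ) : ℂ) = 1 := by
  have hp : p.Prime := Fact.out
  have hF : IsClassFunction G (fun g => (χ : G → ℂ) g * conj ((χ : G → ℂ) g)) := by
    intro g h
    show (χ : G → ℂ) _ * conj ((χ : G → ℂ) _) = _
    rw [irr_isClassFunction χ g h]
  have h1 := sum_sections X hX hXrep _ hF
  rw [sum_irr_mul_conj, if_pos rfl, inv_mul_cancel₀ (by exact_mod_cast Fintype.card_ne_zero)] at h1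
  rw [h1]
  refine Finset.sum_congr rfl fun x hx => ?_
  rw [← sum_norm_section hM x (hX x hx) hB hχ, Finset.mul_sum]
  refine Finset.sum_congr rfl fun β _ => ?_
  unfold subAlpha
  have h2 : ((p ^ blockDefect p β : ℕ) : ℂ) ≠ 0 := by exact_mod_cast pow_ne_zero _ hp.ne_zero
  field_simp

omit [Fact p.Prime] in
theorem memLocalRing_sum_div_index {K : Type*} [Group K] [Fintype K] (hP : M.IsPrime) {F : K → ℂ}
    (hF : IsClassFunction K F) (h : ∀ s, MemLocalRing M (F s)) :
    MemLocalRing M (∑ s : K, F s / ((Subgroup.centralizer ({s} : Set K)).index : ℂ)) := by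
  classical
  rw [sum_div_index hF]
  exact MemLocalRing.sum hP _ _ fun C _ => h _

/-- the diagonal contribution of a major subsection is divisible by `p^h` -/
theorem memLocalRing_subAlpha_div (hM : IsPModular p M) (x : G) {k : ℕ} (hx : orderOf x = p ^ k)
    {B : Set (IrrCharacter G)} {β : Set (IrrCharacter (Cen x))}
    (hind : IsInducedBlock M (Cen x) β B) (hmaj : blockDefect p β = blockDefect p B)
    {χ : IrrCharacter G} (hχ : χ ∈ B) :
    MemLocalRing M (subAlpha p x β χ χ / (p : ℂ) ^ blockHeight p B (χ : G → ℂ)) := by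
  classical
  have hMp : M.IsPrime := hM.2.1.isPrime
  have hp : p.Prime := Fact.out
  rw [subAlpha_eq_W hM x hx hind.1 χ χ, mul_div_right_comm]
  refine MemLocalRing.mul hMp ?_ ?_
  · have h2 : ((p ^ blockDefect p β : ℕ) : ℂ) * (χ : G → ℂ) 1 / (Fintype.card G : ℂ) /
        (p : ℂ) ^ blockHeight p B (χ : G → ℂ)
        = ((p ^ blockDefect p β * charDegree (χ : G → ℂ) : ℕ) : ℂ) /
          ((Fintype.card G * p ^ blockHeight p B (χ : G → ℂ) : ℕ) : ℂ) := by
      rw [irr_one_eq]; push_cast; rw [div_div]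
    rw [h2]
    apply memLocalRing_natCast_div hM
      (Nat.mul_ne_zero Fintype.card_ne_zero (pow_ne_zero _ hp.ne_zero))
    rw [Nat.factorization_mul (pow_ne_zero _ hp.ne_zero) (irr_charDegree_pos χ).ne',
      Nat.factorization_mul Fintype.card_ne_zero (pow_ne_zero _ hp.ne_zero),
      Nat.factorization_pow, Nat.factorization_pow, hmaj, blockDefect_eq, blockHeight_eq,
      Nat.card_eq_fintype_card]
    simp only [Finsupp.coe_add, Finsupp.coe_smul, Pi.add_apply, Pi.smul_apply, smul_eq_mul,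
      hp.factorization_self, mul_one]
    have h3 := minDeg_le (p := p) hχ
    have h4 := minDeg_le_card (p := p) (⟨χ, hχ⟩ : B.Nonempty)
    rw [Nat.card_eq_fintype_card] at h4
    omega
  · apply memLocalRing_sum_div_index hMp
    · intro g h
      simp only
      rw [orderOf_conj']
      have h5 := tw_isClassFunction x (centralChar_isClassFunction' (irr_isClassFunction χ)) g h
      have h6 : centralChar (χ : G → ℂ) (x * ((h * g * h⁻¹ : Cen x) : G))
          = centralChar (χ : G → ℂ) (x * (g : G)) := h5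
      rw [h6, blockPart_isClassFunction' β _ g h]
    · intro s
      by_cases hs : p ∣ orderOf s
      · simp only [hs, not_true_eq_false, if_false]
        exact memLocalRing_zero hMp
      · simp only [if_pos hs]
        exact MemLocalRing.mul hMp
          (memLocalRing_of_isIntegral hMp (isIntegral_centralChar χ.2 _))
          (memLocalRing_of_isIntegral hMp
            (map_isIntegral_int (starRingEnd ℂ) (isIntegral_blockPart_tw x β χ s)))

/-- the diagonal contribution of a major subsection does not vanish -/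
theorem subAlpha_self_ne_zero (hM : IsPModular p M) (x : G) {k : ℕ} (hx : orderOf x = p ^ k)
    {B : Set (IrrCharacter G)} {β : Set (IrrCharacter (Cen x))}
    (hind : IsInducedBlock M (Cen x) β B) (hmaj : blockDefect p β = blockDefect p B)
    {χ : IrrCharacter G} (hχ : χ ∈ B) : subAlpha p x β χ χ ≠ 0 := by
  have hp : p.Prime := Fact.out
  obtain ⟨ψ0, hψ0, h0⟩ := exists_height_zero (p := p) (⟨χ, hχ⟩ : B.Nonempty)
  have hne : Xr p x β χ ≠ 0 := by
    intro h
    apply subAlpha_ne_zero_of_major hM x hx hind hmaj hχ hψ0 h0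
    unfold subAlpha
    rw [h]
    simp
  unfold subAlpha
  refine mul_ne_zero (div_ne_zero ?_ ?_) (sum_mul_conj_ne_zero hne)
  · exact_mod_cast pow_ne_zero _ hp.ne_zero
  · exact_mod_cast Fintype.card_ne_zero

section Gal

variable {n : ℕ} [NeZero n]

theorem subAlpha_mem_rootRing (hM : IsPModular p M) (x : G) {k : ℕ} (hx : orderOf x = p ^ k)
    (hkn : p ^ k ∣ n) {B : Set (IrrCharacter G)} {β : Set (IrrCharacter (Cen x))}
    (hind : IsInducedBlock M (Cen x) β B) (χ ψ : IrrCharacter G) :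
    subAlpha p x β χ ψ ∈ rootRing n := by
  classical
  obtain ⟨lam, nn, m, hl, hm, hα, hβ⟩ := exists_subsection_data hM x hx hind
  obtain ⟨c, rfl⟩ := hkn
  have hw : ∀ ζ ξ, (lam ζ * conj (lam ξ)) ^ (p ^ k * c) = 1 := by
    intro ζ ξ
    rw [pow_mul, mul_pow, ← map_pow, hl, hl, map_one, one_mul, one_pow]
  rw [hα]
  refine Subring.sum_mem _ fun ζ _ => Subring.sum_mem _ fun ξ _ => ?_
  exact Subring.mul_mem _ (mem_rootRing_of_pow (hw ζ ξ)) (intCast_mem _ _)

/-- all Galois conjugates of a diagonal contribution are nonnegative reals -/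
theorem exists_real_conj (hM : IsPModular p M) (τ : (ZMod n)ˣ → (ℂ ≃+* ℂ))
    (hτ1 : ∀ j w, w ^ n = 1 → τ j w = w ^ (j : ZMod n).val)
    (x : G) {k : ℕ} (hx : orderOf x = p ^ k)
    (hkn : p ^ k ∣ n) {B : Set (IrrCharacter G)} {β : Set (IrrCharacter (Cen x))}
    (hind : IsInducedBlock M (Cen x) β B) (χ : IrrCharacter G) :
    ∃ t : (ZMod n)ˣ → ℝ, (∀ j, (t j : ℂ) = τ j (subAlpha p x β χ χ)) ∧ ∀ j, 0 ≤ t j := by
  classical
  have hp : p.Prime := Fact.out
  have hn : 0 < n := Nat.pos_of_ne_zero (NeZero.ne n)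
  have hc : ((p ^ blockDefect p β : ℕ) : ℂ) ≠ 0 := by exact_mod_cast pow_ne_zero _ hp.ne_zero
  refine ⟨fun j => (∑ ψ ∈ Finset.univ.filter (· ∈ B), ‖τ j (subAlpha p x β χ ψ)‖ ^ 2) /
    ((p ^ blockDefect p β : ℕ) : ℝ), fun j => ?_, fun j => by positivity⟩
  have h1 := congrArg (τ j) (subAlpha_sq hM x ⟨k, hx⟩ hind χ)
  rw [map_sum, map_mul, map_natCast] at h1
  rw [Complex.ofReal_div, Complex.ofReal_natCast, div_eq_iff hc, mul_comm, ← h1]
  push_cast
  refine Finset.sum_congr rfl fun ψ _ => ?_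
  rw [map_mul, map_conj_of_mem_rootRing hn (τ j) _ (hτ1 j)
    (subAlpha_mem_rootRing hM x hx hkn hind χ ψ), Complex.mul_conj']

open Classical in
/-- the bound for one section -/
theorem section_bound (hM : IsPModular p M) (τ : (ZMod n)ˣ → (ℂ ≃+* ℂ))
    (hτ1 : ∀ j w, w ^ n = 1 → τ j w = w ^ (j : ZMod n).val)
    (hτ5 : ∀ a ∈ rootRing n, a ≠ 0 → ∀ h : ℕ, MemLocalRing M (a / (p : ℂ) ^ h) →
        ∀ t : (ZMod n)ˣ → ℝ, (∀ j, (t j : ℂ) = τ j a) → (∀ j, 0 ≤ t j) →
          (Fintype.card (ZMod n)ˣ : ℝ) * (p : ℝ) ^ h ≤ ∑ j, t j)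
    (x : G) {k : ℕ} (hx : orderOf x = p ^ k) (hkn : p ^ k ∣ n) {B : Set (IrrCharacter G)}
    {χ : IrrCharacter G} (hχ : χ ∈ B) :
    ∃ T : (ZMod n)ˣ → ℝ,
      (∀ j, (T j : ℂ) = τ j (∑ β ∈ indBlocks M x B,
        subAlpha p x β χ χ / ((p ^ blockDefect p β : ℕ) : ℂ))) ∧
      (((indBlocks M x B).filter (fun β => blockDefect p β = blockDefect p B)).card : ℝ) *
        ((Fintype.card (ZMod n)ˣ : ℝ) * (p : ℝ) ^ blockHeight p B (χ : G → ℂ))
        ≤ (p : ℝ) ^ blockDefect p B * ∑ j, T j := by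
  have hp : p.Prime := Fact.out
  have hpR : (0 : ℝ) < (p : ℝ) := by exact_mod_cast hp.pos
  have hA : ∀ β : Set (IrrCharacter (Cen x)), ∃ t : (ZMod n)ˣ → ℝ, β ∈ indBlocks M x B →
      (∀ j, (t j : ℂ) = τ j (subAlpha p x β χ χ)) ∧ ∀ j, 0 ≤ t j := by
    intro β
    by_cases hβ : β ∈ indBlocks M x B
    · obtain ⟨t, ht⟩ := exists_real_conj hM τ hτ1 x hx hkn (mem_indBlocks.1 hβ) χ
      exact ⟨t, fun _ => ht⟩
    · exact ⟨0, fun h => absurd h hβ⟩
  choose t ht using hA
  refine ⟨fun j => ∑ β ∈ indBlocks M x B, t β j / ((p ^ blockDefect p β : ℕ) : ℝ), fun j => ?_, ?_⟩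
  · rw [map_sum]
    push_cast
    refine Finset.sum_congr rfl fun β hβ => ?_
    rw [map_div₀, (ht β hβ).1 j, map_pow, map_natCast]
  · rw [Finset.sum_comm, Finset.mul_sum]
    have h1 : ∀ β ∈ (indBlocks M x B).filter (fun β => blockDefect p β = blockDefect p B),
        (Fintype.card (ZMod n)ˣ : ℝ) * (p : ℝ) ^ blockHeight p B (χ : G → ℂ)
          ≤ (p : ℝ) ^ blockDefect p B * ∑ j, t β j / ((p ^ blockDefect p β : ℕ) : ℝ) := by
      intro β hβ
      rw [Finset.mem_filter] at hβ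
      have hind := mem_indBlocks.1 hβ.1
      have h2 := hτ5 _ (subAlpha_mem_rootRing hM x hx hkn hind χ χ)
        (subAlpha_self_ne_zero hM x hx hind hβ.2 hχ) _
        (memLocalRing_subAlpha_div hM x hx hind hβ.2 hχ) (t β) (ht β hβ.1).1 (ht β hβ.1).2
      rw [← Finset.sum_div, hβ.2]
      push_cast
      rw [mul_div_cancel₀ _ (by positivity)]
      exact h2
    calc (((indBlocks M x B).filter (fun β => blockDefect p β = blockDefect p B)).card : ℝ) *
        ((Fintype.card (ZMod n)ˣ : ℝ) * (p : ℝ) ^ blockHeight p B (χ : G → ℂ))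
        = ∑ β ∈ (indBlocks M x B).filter (fun β => blockDefect p β = blockDefect p B),
          (Fintype.card (ZMod n)ˣ : ℝ) * (p : ℝ) ^ blockHeight p B (χ : G → ℂ) := by
          rw [Finset.sum_const, nsmul_eq_mul]
      _ ≤ ∑ β ∈ (indBlocks M x B).filter (fun β => blockDefect p β = blockDefect p B),
          (p : ℝ) ^ blockDefect p B * ∑ j, t β j / ((p ^ blockDefect p β : ℕ) : ℝ) :=
          Finset.sum_le_sum h1
      _ ≤ ∑ β ∈ indBlocks M x B,
          (p : ℝ) ^ blockDefect p B * ∑ j, t β j / ((p ^ blockDefect p β : ℕ) : ℝ) := by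
          refine Finset.sum_le_sum_of_subset_of_nonneg (Finset.filter_subset _ _) fun β hβ _ => ?_
          refine mul_nonneg (by positivity) (Finset.sum_nonneg fun j _ => ?_)
          exact div_nonneg ((ht β hβ).2 j) (by positivity)

end Gal

open Classical in
/-- **The number of classes of major subsections is at most `p^(d-h)`.** -/
theorem card_major_mul_le (hM : IsPModular p M) (X : Finset G)
    (hX : ∀ x ∈ X, ∃ k : ℕ, orderOf x = p ^ k)
    (hXrep : ∀ g : G, (∃ k : ℕ, orderOf g = p ^ k) → ∃! x, x ∈ X ∧ IsConj g x)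
    {B : Set (IrrCharacter G)} (hB : IsPBlock M B) {χ : IrrCharacter G} (hχ : χ ∈ B) :
    (∑ x ∈ X, ((indBlocks M x B).filter (fun β => blockDefect p β = blockDefect p B)).card) *
      p ^ blockHeight p B (χ : G → ℂ) ≤ p ^ blockDefect p B := by
  have hp : p.Prime := Fact.out
  have hpR : (0 : ℝ) < (p : ℝ) := by exact_mod_cast hp.pos
  obtain ⟨K, hK⟩ : ∃ K : ℕ, K = Fintype.card G := ⟨_, rfl⟩
  haveI : NeZero (p ^ (K + 2)) := ⟨pow_ne_zero _ hp.ne_zero⟩
  obtain ⟨τ, hτ1, hτ5⟩ := galois_pkg3 hM K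
  have hA : ∀ x : G, ∃ T : (ZMod (p ^ (K + 2)))ˣ → ℝ, x ∈ X →
      (∀ j, (T j : ℂ) = τ j (∑ β ∈ indBlocks M x B,
        subAlpha p x β χ χ / ((p ^ blockDefect p β : ℕ) : ℂ))) ∧
      (((indBlocks M x B).filter (fun β => blockDefect p β = blockDefect p B)).card : ℝ) *
        ((Fintype.card (ZMod (p ^ (K + 2)))ˣ : ℝ) * (p : ℝ) ^ blockHeight p B (χ : G → ℂ))
        ≤ (p : ℝ) ^ blockDefect p B * ∑ j, T j := by
    intro x
    by_cases hx : x ∈ X
    · obtain ⟨k, hk⟩ := hX x hx
      have hkn : p ^ k ∣ p ^ (K + 2) := by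
        apply pow_dvd_pow
        have h1 : k < p ^ k := Nat.lt_pow_self hp.one_lt
        have h2 : p ^ k ≤ K := by rw [← hk, hK]; exact orderOf_le_card_univ
        omega
      obtain ⟨T, hT⟩ := section_bound hM τ hτ1 hτ5 x hk hkn hχ
      exact ⟨T, fun _ => hT⟩
    · exact ⟨0, fun h => absurd h hx⟩
  choose T hT using hA
  have hone : ∀ j, ∑ x ∈ X, T x j = 1 := by
    intro j
    have h1 : ((∑ x ∈ X, T x j : ℝ) : ℂ) = 1 := by
      push_cast
      rw [Finset.sum_congr rfl fun x hx => (hT x hx).1 j, ← map_sum,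
        sum_subAlpha_eq_one hM X hX hXrep hB hχ, map_one]
    exact_mod_cast h1
  have hφ : (0 : ℝ) < (Fintype.card (ZMod (p ^ (K + 2)))ˣ : ℝ) := by
    exact_mod_cast Fintype.card_pos
  have h2 : ∑ x ∈ X, (((indBlocks M x B).filter
      (fun β => blockDefect p β = blockDefect p B)).card : ℝ) *
        ((Fintype.card (ZMod (p ^ (K + 2)))ˣ : ℝ) * (p : ℝ) ^ blockHeight p B (χ : G → ℂ))
      ≤ ∑ x ∈ X, (p : ℝ) ^ blockDefect p B * ∑ j, T x j :=
    Finset.sum_le_sum fun x hx => (hT x hx).2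
  rw [← Finset.sum_mul, ← Finset.mul_sum, Finset.sum_comm, Finset.sum_congr rfl fun j _ => hone j,
    Finset.sum_const, Finset.card_univ, nsmul_eq_mul, mul_one] at h2
  have h3 : (∑ x ∈ X, (((indBlocks M x B).filter
      (fun β => blockDefect p β = blockDefect p B)).card : ℝ)) *
        (p : ℝ) ^ blockHeight p B (χ : G → ℂ) ≤ (p : ℝ) ^ blockDefect p B := by
    have h4 : ((∑ x ∈ X, (((indBlocks M x B).filter
      (fun β => blockDefect p β = blockDefect p B)).card : ℝ)) *
        (p : ℝ) ^ blockHeight p B (χ : G → ℂ)) * (Fintype.card (ZMod (p ^ (K + 2)))ˣ : ℝ)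
        ≤ (p : ℝ) ^ blockDefect p B * (Fintype.card (ZMod (p ^ (K + 2)))ˣ : ℝ) := by
      calc _ = (∑ x ∈ X, (((indBlocks M x B).filter
            (fun β => blockDefect p β = blockDefect p B)).card : ℝ)) *
            ((Fintype.card (ZMod (p ^ (K + 2)))ˣ : ℝ) *
              (p : ℝ) ^ blockHeight p B (χ : G → ℂ)) := by ring
        _ ≤ _ := h2
    exact le_of_mul_le_mul_right h4 hφ
  exact_mod_cast h3

end Cfsg.Agent.Lib.Helper74
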